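import Mathlib
import Cfsg.Agent.H60.Sp5
import Cfsg.Agent.H60.Ext5
import Cfsg.Agent.H60.SuzFacts

set_option autoImplicit false

namespace Cfsg.Agent.H60

open scoped Classical

open scoped commutatorElement

theorem cc_inv_left {T : Type*} [Group T] (y w : T) (hc : ⁅y, w⁆ ∈ Subgroup.center T) :
    ⁅y⁻¹, w⁆ = ⁅y, w⁆⁻¹ := by
  have hk : ⁅y, w⁆⁻¹ ∈ Subgroup.center T := Subgroup.inv_mem _ hc
  have h := Subgroup.mem_center_iff.mp hk
  have e : ⁅y⁻¹, w⁆ = y⁻¹ * ⁅y, w⁆⁻¹ * y := by
    simp only [commutatorElement_def]; group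
  rw [e, h y⁻¹, mul_assoc, inv_mul_cancel, mul_one]

/-- If the derived subgroup `T` of `G = T⟨s⟩` has a subgroup `M` containing all commutators
of `T` and all `y⁻¹ y^s`, then `M = T`. -/
theorem comm_bound {G : Type*} [Group G] {s : G}
    (E : Ext5 (commutator G).subtype s (MulAut.conjNormal s))
    (M : Subgroup ↥(commutator G)) (ha : ∀ y w : ↥(commutator G), ⁅y, w⁆ ∈ M)
    (hb : ∀ y : ↥(commutator G),
      y⁻¹ * (MulAut.conjNormal s : MulAut ↥(commutator G)) y ∈ M) : M = ⊤ := by
  haveI hMn : M.Normal := by
    refine ⟨fun n hn g => ?_⟩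
    have e : g * n * g⁻¹ = ⁅g, n⁆ * n := by simp only [commutatorElement_def]; group
    rw [e]
    exact M.mul_mem (ha g n) hn
  have hQcomm : ∀ a b : ↥(commutator G) ⧸ M, a * b = b * a := by
    intro a b
    induction a using QuotientGroup.induction_on with
    | H y =>
      induction b using QuotientGroup.induction_on with
      | H w =>
        rw [← QuotientGroup.mk_mul, ← QuotientGroup.mk_mul, QuotientGroup.eq]
        have e : (y * w)⁻¹ * (w * y) = ⁅w⁻¹, y⁻¹⁆ := by
          simp only [commutatorElement_def]; group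
        rw [e]
        exact ha _ _
  have hh : ∀ y : ↥(commutator G), (1 : ↥(commutator G) ⧸ M) * QuotientGroup.mk' M y * 1⁻¹
      = QuotientGroup.mk' M ((MulAut.conjNormal s : MulAut ↥(commutator G)) y) := by
    intro y
    rw [one_mul, inv_one, mul_one, QuotientGroup.mk'_apply, QuotientGroup.mk'_apply,
      QuotientGroup.eq]
    exact hb y
  obtain ⟨f, hf⟩ := E.lift (QuotientGroup.mk' M) 1 hh (one_pow 5)
  have hker : commutator G ≤ f.ker := by
    refine (Subgroup.commutator_le (H₁ := ⊤) (H₂ := ⊤)).mpr ?_
    intro g₁ _ g₂ _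
    rw [MonoidHom.mem_ker, map_commutatorElement, commutatorElement_eq_one_iff_mul_comm]
    exact hQcomm _ _
  rw [eq_top_iff]
  intro y _
  have h1 := hf y 0
  rw [pow_zero, mul_one, pow_zero, mul_one] at h1
  have h2 : f (y : G) = 1 := MonoidHom.mem_ker.mp (hker y.2)
  have h3 : QuotientGroup.mk' M y = 1 := by
    rw [← h1]; exact h2
  rw [QuotientGroup.mk'_apply, QuotientGroup.eq_one_iff] at h3
  exact h3

/-- The commutators of `T` are not contained in a central subgroup of order at most two. -/
theorem no_small_comm {G : Type*} [Group G] [Finite G] {s : G}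
    (E : Ext5 (commutator G).subtype s (MulAut.conjNormal s))
    (hD : Nat.card ↥(commutator G) = 64)
    (hcZ : Nat.card ↥(Subgroup.center ↥(commutator G)) = 4)
    (hfix : ∀ z ∈ Subgroup.center ↥(commutator G),
      (MulAut.conjNormal s : MulAut ↥(commutator G)) z = z)
    (hzsq : ∀ z ∈ Subgroup.center ↥(commutator G), z * z = 1)
    (c : ↥(commutator G)) (hc : c ∈ Subgroup.center ↥(commutator G)) :
    ¬ ∀ y w : ↥(commutator G), ⁅y, w⁆ ∈ Subgroup.zpowers c := by
  intro hall
  set σ : MulAut ↥(commutator G) := MulAut.conjNormal s with hσ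
  set C : Subgroup ↥(commutator G) := Subgroup.zpowers c with hC
  have hCZ : C ≤ Subgroup.center ↥(commutator G) := Subgroup.zpowers_le.mpr hc
  have hcC : Nat.card ↥C ≤ 2 := by
    rw [hC, Nat.card_zpowers]
    exact orderOf_le_of_pow_eq_one (by norm_num) (by rw [pow_two]; exact hzsq c hc)
  haveI hCn : C.Normal := by
    refine ⟨fun n hn g => ?_⟩
    have h := Subgroup.mem_center_iff.mp (hCZ hn) g
    rw [h, mul_assoc, mul_inv_cancel, mul_one]
    exact hn
  have hQcomm : ∀ a b : ↥(commutator G) ⧸ C, a * b = b * a := by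
    intro a b
    induction a using QuotientGroup.induction_on with
    | H y =>
      induction b using QuotientGroup.induction_on with
      | H w =>
        rw [← QuotientGroup.mk_mul, ← QuotientGroup.mk_mul, QuotientGroup.eq]
        have e : (y * w)⁻¹ * (w * y) = ⁅w⁻¹, y⁻¹⁆ := by
          simp only [commutatorElement_def]; group
        rw [e]
        exact hall _ _
  let δ : ↥(commutator G) →* ↥(commutator G) ⧸ C :=
    MonoidHom.mk' (fun y => (QuotientGroup.mk' C y)⁻¹ * QuotientGroup.mk' C (σ y)) (by
      intro y w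
      rw [map_mul, map_mul, map_mul, mul_inv_rev]
      generalize QuotientGroup.mk' C y = a
      generalize QuotientGroup.mk' C w = b
      generalize QuotientGroup.mk' C (σ y) = a'
      generalize QuotientGroup.mk' C (σ w) = b'
      calc b⁻¹ * a⁻¹ * (a' * b') = (b⁻¹ * a⁻¹) * a' * b' := by group
        _ = (a⁻¹ * b⁻¹) * a' * b' := by rw [hQcomm b⁻¹ a⁻¹]
        _ = a⁻¹ * (b⁻¹ * a') * b' := by group
        _ = a⁻¹ * (a' * b⁻¹) * b' := by rw [hQcomm b⁻¹ a']
        _ = a⁻¹ * a' * (b⁻¹ * b') := by group)
  have hδ : ∀ y, δ y = (QuotientGroup.mk' C y)⁻¹ * QuotientGroup.mk' C (σ y) := fun y => rfl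
  have hZker : Subgroup.center ↥(commutator G) ≤ δ.ker := by
    intro z hz
    rw [MonoidHom.mem_ker, hδ, hfix z hz, inv_mul_cancel]
  have hM : δ.range.comap (QuotientGroup.mk' C) = ⊤ := by
    apply comm_bound E
    · intro y w
      rw [Subgroup.mem_comap]
      have : QuotientGroup.mk' C ⁅y, w⁆ = 1 := by
        rw [QuotientGroup.mk'_apply, QuotientGroup.eq_one_iff]
        exact hall y w
      rw [this]
      exact Subgroup.one_mem _
    · intro y
      rw [Subgroup.mem_comap, map_mul, map_inv]
      exact ⟨y, rfl⟩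
  have hsurj : Function.Surjective δ := by
    intro q
    obtain ⟨y, rfl⟩ := QuotientGroup.mk'_surjective C q
    have : y ∈ δ.range.comap (QuotientGroup.mk' C) := hM ▸ Subgroup.mem_top y
    exact this
  have h1 := Subgroup.card_eq_card_quotient_mul_card_subgroup C
  have h2 := Subgroup.card_eq_card_quotient_mul_card_subgroup δ.ker
  have h3 : Nat.card (↥(commutator G) ⧸ δ.ker) = Nat.card (↥(commutator G) ⧸ C) :=
    Nat.card_congr (QuotientGroup.quotientKerEquivOfSurjective δ hsurj).toEquiv
  have h4 : 4 ≤ Nat.card ↥δ.ker := by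
    rw [← hcZ]; exact Subgroup.card_le_of_le hZker
  rw [hD] at h1 h2
  rw [h3] at h2
  have h5 : 32 ≤ Nat.card (↥(commutator G) ⧸ C) := by
    by_contra hlt
    push Not at hlt
    have : Nat.card (↥(commutator G) ⧸ C) * Nat.card ↥C ≤ 31 * 2 :=
      Nat.mul_le_mul (by omega) hcC
    omega
  have : 32 * 4 ≤ Nat.card (↥(commutator G) ⧸ C) * Nat.card ↥δ.ker := Nat.mul_le_mul h5 h4
  omega

/-- Structure of a group of order 320 whose derived subgroup has order 64 with Klein four
centre. -/
theorem g320_struct {G : Type*} [Group G] [Finite G] (hG : Nat.card G = 320)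
    (hD : Nat.card ↥(commutator G) = 64)
    (hZ : IsKleinFour ↥(Subgroup.center ↥(commutator G))) :
    ∃ (s : G) (x : ↥(commutator G)),
      Ext5 (commutator G).subtype s (MulAut.conjNormal s) ∧
      Sp5 (MulAut.conjNormal s : MulAut ↥(commutator G)) x
        ⁅x, (MulAut.conjNormal s : MulAut ↥(commutator G)) x⁆
        ⁅x, (MulAut.conjNormal s : MulAut ↥(commutator G))
          ((MulAut.conjNormal s : MulAut ↥(commutator G)) x)⁆ ∧
      ⁅x, (MulAut.conjNormal s : MulAut ↥(commutator G)) x⁆ ≠ 1 ∧
      ⁅x, (MulAut.conjNormal s : MulAut ↥(commutator G))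
          ((MulAut.conjNormal s : MulAut ↥(commutator G)) x)⁆ ≠ 1 ∧
      ⁅x, (MulAut.conjNormal s : MulAut ↥(commutator G)) x⁆
        ≠ ⁅x, (MulAut.conjNormal s : MulAut ↥(commutator G))
          ((MulAut.conjNormal s : MulAut ↥(commutator G)) x)⁆ := by
  haveI : Fact (Nat.Prime 5) := ⟨by norm_num⟩
  haveI : Fact (Nat.Prime 2) := ⟨Nat.prime_two⟩
  obtain ⟨s, hs⟩ := exists_prime_orderOf_dvd_card' (G := G) 5 (by rw [hG]; norm_num)
  have hs5 : s ^ 5 = 1 := by rw [← hs]; exact pow_orderOf_eq_one s
  set σ : MulAut ↥(commutator G) := MulAut.conjNormal s with hσdef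
  have hσ : ∀ y : ↥(commutator G), ((σ y : ↥(commutator G)) : G) = s * y * s⁻¹ :=
    fun y => MulAut.conjNormal_apply s y
  have sigma5 : ∀ y, σ (σ (σ (σ (σ y)))) = y := by
    have h5 : σ ^ 5 = 1 := by rw [hσdef, ← map_pow, hs5, map_one]
    intro y
    have := congrArg (fun f : MulAut ↥(commutator G) => f y) h5
    simp only [pow_succ, pow_zero, one_mul, MulAut.mul_apply, MulAut.one_apply] at this
    exact this
  have htop : commutator G ⊔ Subgroup.zpowers s = ⊤ := by
    apply Subgroup.eq_top_of_card_eq
    have d1 : 64 ∣ Nat.card ↥(commutator G ⊔ Subgroup.zpowers s) := by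
      rw [← hD]; exact Subgroup.card_dvd_of_le le_sup_left
    have d2 : 5 ∣ Nat.card ↥(commutator G ⊔ Subgroup.zpowers s) := by
      have : Nat.card ↥(Subgroup.zpowers s) = 5 := by rw [Nat.card_zpowers, hs]
      rw [← this]; exact Subgroup.card_dvd_of_le le_sup_right
    have d3 : 64 * 5 ∣ Nat.card ↥(commutator G ⊔ Subgroup.zpowers s) :=
      Nat.Coprime.mul_dvd_of_dvd_of_dvd (by norm_num) d1 d2
    have d4 := Subgroup.card_le_card_group (commutator G ⊔ Subgroup.zpowers s)
    have d5 := Nat.le_of_dvd Nat.card_pos d3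
    omega
  have hgen : ∀ g : G, ∃ y : ↥(commutator G), ∃ k : ℕ,
      g = (commutator G).subtype y * s ^ k := by
    intro g
    have hg : g ∈ (↑(commutator G ⊔ Subgroup.zpowers s) : Set G) := by
      rw [htop]; exact Set.mem_univ g
    rw [Subgroup.normal_mul] at hg
    obtain ⟨y, hy, z, hz, rfl⟩ := Set.mem_mul.mp hg
    have hz' : z ∈ Submonoid.powers s := mem_powers_iff_mem_zpowers.mpr hz
    obtain ⟨k, rfl⟩ := (Submonoid.mem_powers_iff _ _).mp hz'
    exact ⟨⟨y, hy⟩, k, rfl⟩
  have hsT : ∀ k : ℕ, s ^ k ∈ (commutator G).subtype.range → 5 ∣ k := by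
    intro k hk
    rw [Subgroup.range_subtype] at hk
    have o1 : orderOf (s ^ k) ∣ 64 := hD ▸ Subgroup.orderOf_dvd_natCard _ hk
    have o2 : orderOf (s ^ k) ∣ 5 :=
      orderOf_dvd_of_pow_eq_one (by rw [← pow_mul, mul_comm, pow_mul, hs5, one_pow])
    have o3 : s ^ k = 1 := by
      have := Nat.dvd_gcd o1 o2
      have hg : Nat.gcd 64 5 = 1 := by norm_num
      rw [hg, Nat.dvd_one, orderOf_eq_one_iff] at this
      exact this
    rw [← hs]
    exact orderOf_dvd_of_pow_eq_one o3
  have E : Ext5 (commutator G).subtype s σ :=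
    ⟨Subgroup.subtype_injective _, fun y => (hσ y).symm, hs5, hsT, hgen⟩
  have hcZ : Nat.card ↥(Subgroup.center ↥(commutator G)) = 4 := hZ.card_four
  have hzsq : ∀ z ∈ Subgroup.center ↥(commutator G), z * z = 1 := by
    intro z hz
    have := IsKleinFour.mul_self (⟨z, hz⟩ : ↥(Subgroup.center ↥(commutator G)))
    exact congrArg Subtype.val this
  let FixS : Subgroup ↥(commutator G) :=
    { carrier := {y | σ y = y}
      mul_mem' := by
        intro a b ha hb
        show σ (a * b) = a * b
        rw [map_mul, ha, hb]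
      one_mem' := map_one σ
      inv_mem' := by
        intro a ha
        show σ a⁻¹ = a⁻¹
        rw [map_inv, ha] }
  have hfixZ : ∀ z ∈ Subgroup.center ↥(commutator G), σ z = z := by
    have hmod := sub_fix_mod5 σ sigma5 (Subgroup.center ↥(commutator G))
      (Subgroup.center ↥(commutator G) ⊓ FixS)
      (fun y hy => (mulEquiv_mem_center σ y).mpr hy) (fun y => Iff.rfl)
    rw [hcZ] at hmod
    have hle := Subgroup.card_le_of_le
      (inf_le_left : Subgroup.center ↥(commutator G) ⊓ FixS ≤ Subgroup.center ↥(commutator G))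
    rw [hcZ] at hle
    have h4 : Nat.card ↥(Subgroup.center ↥(commutator G) ⊓ FixS) = 4 := by
      unfold Nat.ModEq at hmod
      omega
    have heq : Subgroup.center ↥(commutator G) ⊓ FixS = Subgroup.center ↥(commutator G) :=
      Subgroup.eq_of_le_of_card_ge inf_le_left (by rw [h4, hcZ])
    intro z hz
    have : z ∈ Subgroup.center ↥(commutator G) ⊓ FixS := by
      rw [heq]
      exact hz
    exact this.2
  have hP : IsPGroup 2 ↥(commutator G) := IsPGroup.of_card (n := 6) (by rw [hD]; norm_num)
  have hFix : ∀ y, σ y = y ↔ y ∈ Subgroup.center ↥(commutator G) := by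
    have hZF : Subgroup.center ↥(commutator G) ≤ FixS := fun z hz => hfixZ z hz
    have hmod := sub_fix_mod5 σ sigma5 ⊤ FixS (fun y _ => Subgroup.mem_top _)
      (fun y => ⟨fun h => ⟨Subgroup.mem_top _, h⟩, fun h => h.2⟩)
    rw [Subgroup.card_top, hD] at hmod
    have hdvd : Nat.card ↥FixS ∣ 64 := hD ▸ Subgroup.card_subgroup_dvd_card FixS
    have h4 : Nat.card ↥FixS = 4 := by
      rcases card_4_or_64 hdvd (by unfold Nat.ModEq at hmod ⊢; omega) with h | h
      · exact h
      · exfalso
        have htopF : FixS = ⊤ := Subgroup.eq_top_of_card_eq FixS (by rw [h, hD])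
        have hid : ∀ y, σ y = y := fun y => by
          have : y ∈ FixS := htopF ▸ Subgroup.mem_top y
          exact this
        have hc := comm_bound E (commutator ↥(commutator G))
          (fun y w => Subgroup.commutator_mem_commutator (Subgroup.mem_top y) (Subgroup.mem_top w))
          (fun y => by rw [hid y, inv_mul_cancel]; exact Subgroup.one_mem _)
        haveI : Group.IsNilpotent ↥(commutator G) := hP.isNilpotent
        haveI : Nontrivial ↥(commutator G) :=
          Finite.one_lt_card_iff_nontrivial.mp (by rw [hD]; norm_num)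
        exact (Group.IsSolvable.commutator_lt_top_of_nontrivial ↥(commutator G)).ne hc
    have hFZ : Subgroup.center ↥(commutator G) = FixS :=
      Subgroup.eq_of_le_of_card_ge hZF (by rw [h4, hcZ])
    intro y
    constructor
    · intro hy
      rw [hFZ]
      exact hy
    · exact hfixZ y
  have hfpf : ∀ y, y⁻¹ * σ y ∈ Subgroup.center ↥(commutator G) →
      y ∈ Subgroup.center ↥(commutator G) := by
    intro y hy
    set z := y⁻¹ * σ y with hz
    have e1 : σ y = y * z := by rw [hz]; group
    have e2 : σ (σ y) = y := by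
      rw [e1, map_mul, hfixZ z hy, e1, mul_assoc, hzsq z hy, mul_one]
    have e3 := sigma5 y
    rw [e2, e2] at e3
    exact (hFix y).mp e3
  have hcomm : ∀ y w : ↥(commutator G), ⁅y, w⁆ ∈ Subgroup.center ↥(commutator G) := by
    let Z₂ : Subgroup ↥(commutator G) :=
      { carrier := {y | ∀ w, ⁅y, w⁆ ∈ Subgroup.center ↥(commutator G)}
        mul_mem' := by
          intro a b ha hb w
          rw [cc_mul_left a b w (hb w)]
          exact Subgroup.mul_mem _ (ha w) (hb w)
        one_mem' := by
          intro w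
          rw [commutatorElement_one_left]
          exact Subgroup.one_mem _
        inv_mem' := by
          intro a ha w
          rw [cc_inv_left a w (ha w)]
          exact Subgroup.inv_mem _ (ha w) }
    have hZ₂ : Z₂ = ⊤ := by
      apply inv_sub_top σ hD (Subgroup.center ↥(commutator G)) hcZ sigma5 hFix Z₂
      · intro z hz w
        rw [cc_central_left z w hz]
        exact Subgroup.one_mem _
      · intro y hy w
        have e : ⁅σ y, σ (σ (σ (σ (σ w))))⁆ ∈ Subgroup.center ↥(commutator G) := by
          rw [← map_commutatorElement]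
          exact (mulEquiv_mem_center σ _).mpr (hy _)
        rwa [sigma5] at e
      · haveI : Nontrivial (↥(commutator G) ⧸ Subgroup.center ↥(commutator G)) := by
          rw [← Finite.one_lt_card_iff_nontrivial]
          have := Subgroup.card_eq_card_quotient_mul_card_subgroup
            (Subgroup.center ↥(commutator G))
          rw [hD, hcZ] at this
          omega
        have hPQ : IsPGroup 2 (↥(commutator G) ⧸ Subgroup.center ↥(commutator G)) :=
          hP.to_quotient _
        haveI := hPQ.center_nontrivial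
        obtain ⟨q, hq⟩ := exists_ne
          (1 : ↥(Subgroup.center (↥(commutator G) ⧸ Subgroup.center ↥(commutator G))))
        obtain ⟨y, hy⟩ := QuotientGroup.mk_surjective q.1
        refine ⟨y, ?_, ?_⟩
        · intro w
          have h1 : QuotientGroup.mk' (Subgroup.center ↥(commutator G)) ⁅y, w⁆ = 1 := by
            rw [map_commutatorElement, commutatorElement_eq_one_iff_mul_comm]
            have hq2 := Subgroup.mem_center_iff.mp q.2
              (QuotientGroup.mk' (Subgroup.center ↥(commutator G)) w)
            rw [QuotientGroup.mk'_apply, QuotientGroup.mk'_apply, hy]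
            exact hq2.symm
          exact (QuotientGroup.eq_one_iff _).mp h1
        · intro hyZ
          apply hq
          apply Subtype.ext
          rw [← hy]
          exact (QuotientGroup.eq_one_iff y).mpr hyZ
    intro y w
    have : y ∈ Z₂ := hZ₂ ▸ Subgroup.mem_top y
    exact this w
  have hsq : ∀ y : ↥(commutator G), y * y ∈ Subgroup.center ↥(commutator G) := by
    let K₂ : Subgroup ↥(commutator G) :=
      { carrier := {y | y * y ∈ Subgroup.center ↥(commutator G)}
        mul_mem' := by
          intro a b ha hb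
          show (a * b) * (a * b) ∈ Subgroup.center ↥(commutator G)
          rw [sq_mul_cc a b (hcomm b a)]
          exact Subgroup.mul_mem _ (Subgroup.mul_mem _ ha hb) (hcomm b a)
        one_mem' := by
          show (1 : ↥(commutator G)) * 1 ∈ Subgroup.center ↥(commutator G)
          rw [mul_one]
          exact Subgroup.one_mem _
        inv_mem' := by
          intro a ha
          show a⁻¹ * a⁻¹ ∈ Subgroup.center ↥(commutator G)
          rw [← mul_inv_rev]
          exact Subgroup.inv_mem _ ha }
    have hK₂ : K₂ = ⊤ := by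
      apply inv_sub_top σ hD (Subgroup.center ↥(commutator G)) hcZ sigma5 hFix K₂
      · intro z hz
        show z * z ∈ Subgroup.center ↥(commutator G)
        rw [hzsq z hz]
        exact Subgroup.one_mem _
      · intro y hy
        show σ y * σ y ∈ Subgroup.center ↥(commutator G)
        rw [← map_mul]
        exact (mulEquiv_mem_center σ _).mpr hy
      · have hcq : Nat.card (↥(commutator G) ⧸ Subgroup.center ↥(commutator G)) = 16 := by
          have := Subgroup.card_eq_card_quotient_mul_card_subgroup
            (Subgroup.center ↥(commutator G))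
          rw [hD, hcZ] at this
          omega
        obtain ⟨q, hq⟩ := exists_prime_orderOf_dvd_card'
          (G := ↥(commutator G) ⧸ Subgroup.center ↥(commutator G)) 2 (by rw [hcq]; norm_num)
        obtain ⟨y, hy⟩ := QuotientGroup.mk_surjective q
        refine ⟨y, ?_, ?_⟩
        · show y * y ∈ Subgroup.center ↥(commutator G)
          rw [← QuotientGroup.eq_one_iff, QuotientGroup.mk_mul, hy, ← pow_two, ← hq]
          exact pow_orderOf_eq_one q
        · intro hyZ
          have : q = 1 := by
            rw [← hy]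
            exact (QuotientGroup.eq_one_iff y).mpr hyZ
          rw [this, orderOf_one] at hq
          norm_num at hq
    intro y
    have : y ∈ K₂ := hK₂ ▸ Subgroup.mem_top y
    exact this
  obtain ⟨x, hx⟩ : ∃ x : ↥(commutator G), x ∉ Subgroup.center ↥(commutator G) := by
    by_contra hcon
    push Not at hcon
    have htopZ : Subgroup.center ↥(commutator G) = ⊤ := eq_top_iff.mpr (fun y _ => hcon y)
    have h1 : Nat.card ↥(Subgroup.center ↥(commutator G)) = Nat.card ↥(commutator G) := by
      rw [htopZ, Subgroup.card_top]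
    omega
  have hSp : Sp5 σ x ⁅x, σ x⁆ ⁅x, σ (σ x)⁆ :=
    ⟨hD, hcZ, sigma5, hfixZ, hzsq, hfpf, hsq, hcomm, hx, rfl, rfl⟩
  have hk := no_small_comm E hD hcZ hfixZ hzsq
  have hW := hSp.comm_mem_W
  refine ⟨s, x, E, hSp, ?_, ?_, ?_⟩
  · intro h1
    apply hk _ hSp.c₂_mem
    intro y w
    have := hW y w
    rw [h1, Subgroup.zpowers_one_eq_bot, bot_sup_eq] at this
    exact this
  · intro h1
    apply hk _ hSp.c₁_mem
    intro y w
    have := hW y w
    rw [h1, Subgroup.zpowers_one_eq_bot, sup_bot_eq] at this
    exact this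
  · intro h1
    apply hk _ hSp.c₁_mem
    intro y w
    have := hW y w
    rw [← h1, sup_idem] at this
    exact this

end Cfsg.Agent.H60
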