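import Mathlib
import Cfsg.Agent.H85.McLDefs

/-!
# S5075 team piece INV: invariant subspaces of a connected root system (`inv_left`, `inv_right`)
-/

set_option autoImplicit false

namespace Cfsg.Agent.H60.McL

open Module Cfsg.Agent.H85.McL

variable {p : ℕ} [Fact p.Prime] {V : Type*} [AddCommGroup V] [Module (ZMod p) V]

/-- **S5075-INV (left).** -/
theorem inv_left {G : Subgroup (V ≃ₗ[ZMod p] V)} (hopp : HasOpp G) (hconn : Conn G)
    (hA : centers G = ⊤) (hΦ : axes G = ⊤) (U : Submodule (ZMod p) V)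
    (hU : ∀ c χ, Root G c χ → c ∈ U ∨ ∀ u ∈ U, χ u = 0) : U = ⊥ ∨ U = ⊤ := by
  have hdisj : ∀ c χ, Root G c χ → c ∈ U → (∀ u ∈ U, χ u = 0) → False := by
    intro c χ hr hc hχ
    obtain ⟨b, ψ, hb, h1, h2⟩ := hopp c χ hr
    rcases hU b ψ hb with hbU | hψ
    · exact h2 (hχ b hbU)
    · exact h1 (hψ c hc)
  have hadj : ∀ r s : V × Dual (ZMod p) V, Adj G r s → (r.1 ∈ U ↔ s.1 ∈ U) := by
    rintro r s ⟨hr, hs, h⟩
    constructor
    · intro hrU
      by_contra hsU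
      have hs2 : ∀ u ∈ U, s.2 u = 0 := (hU s.1 s.2 hs).resolve_left hsU
      have h0 : s.2 r.1 = 0 := hs2 r.1 hrU
      rcases h with h | h
      · exact h h0
      · exact hdisj r.1 s.2 (hr.swap_axis hs h h0) hrU hs2
    · intro hsU
      by_contra hrU
      have hr2 : ∀ u ∈ U, r.2 u = 0 := (hU r.1 r.2 hr).resolve_left hrU
      have h0 : r.2 s.1 = 0 := hr2 s.1 hsU
      rcases h with h | h
      · exact hdisj s.1 r.2 (hs.swap_axis hr h h0) hsU hr2
      · exact h h0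
  have hchain : ∀ r s : V × Dual (ZMod p) V, Relation.ReflTransGen (Adj G) r s →
      (r.1 ∈ U ↔ s.1 ∈ U) := by
    intro r s h
    induction h with
    | refl => exact Iff.rfl
    | tail _ hbc ih => exact ih.trans (hadj _ _ hbc)
  by_cases hex : ∃ c χ, Root G c χ ∧ c ∈ U
  · right
    obtain ⟨c, χ, hr, hc⟩ := hex
    rw [eq_top_iff, ← hA]
    change Submodule.span (ZMod p) {a | ∃ φ, Root G a φ} ≤ U
    apply Submodule.span_le.mpr
    rintro d ⟨θ, hd⟩
    exact (hchain (c, χ) (d, θ) (hconn (c, χ) (d, θ) hr hd)).mp hc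
  · left
    push Not at hex
    rw [eq_bot_iff]
    intro u hu
    rw [Submodule.mem_bot]
    apply (Module.forall_dual_apply_eq_zero_iff (ZMod p) u).mp
    intro φ
    have hφ : φ ∈ axes G := by rw [hΦ]; exact Submodule.mem_top
    have hφ' : φ ∈ Submodule.span (ZMod p) {φ : Dual (ZMod p) V | ∃ a, Root G a φ} := hφ
    refine Submodule.span_induction (p := fun φ _ => φ u = 0) ?_ ?_ ?_ ?_ hφ'
    · rintro χ ⟨c, hr⟩
      exact (hU c χ hr).resolve_left (hex c χ hr) u hu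
    · exact LinearMap.zero_apply u
    · intro x y _ _ hx hy
      rw [LinearMap.add_apply, hx, hy, add_zero]
    · intro k x _ hx
      rw [LinearMap.smul_apply, hx, smul_zero]

/-- **S5075-INV (right).** -/
theorem inv_right {G : Subgroup (V ≃ₗ[ZMod p] V)} (hopp : HasOpp G) (hconn : Conn G)
    (hA : centers G = ⊤) (hΦ : axes G = ⊤) (Θ : Submodule (ZMod p) (Dual (ZMod p) V))
    (hΘ : ∀ c χ, Root G c χ → χ ∈ Θ ∨ ∀ θ ∈ Θ, θ c = 0) : Θ = ⊥ ∨ Θ = ⊤ := by
  have hdisj : ∀ c χ, Root G c χ → χ ∈ Θ → (∀ θ ∈ Θ, θ c = 0) → False := by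
    intro c χ hr hχ hc
    obtain ⟨b, ψ, hb, h1, h2⟩ := hopp c χ hr
    rcases hΘ b ψ hb with hψ | hb0
    · exact h1 (hc ψ hψ)
    · exact h2 (hb0 χ hχ)
  have hadj : ∀ r s : V × Dual (ZMod p) V, Adj G r s → (r.2 ∈ Θ ↔ s.2 ∈ Θ) := by
    rintro r s ⟨hr, hs, h⟩
    constructor
    · intro hrΘ
      by_contra hsΘ
      have hs2 : ∀ θ ∈ Θ, θ s.1 = 0 := (hΘ s.1 s.2 hs).resolve_left hsΘ
      have h0 : r.2 s.1 = 0 := hs2 r.2 hrΘ
      rcases h with h | h
      · exact hdisj s.1 r.2 (hr.swap_center hs h h0) hrΘ hs2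
      · exact h h0
    · intro hsΘ
      by_contra hrΘ
      have hr2 : ∀ θ ∈ Θ, θ r.1 = 0 := (hΘ r.1 r.2 hr).resolve_left hrΘ
      have h0 : s.2 r.1 = 0 := hr2 s.2 hsΘ
      rcases h with h | h
      · exact h h0
      · exact hdisj r.1 s.2 (hs.swap_center hr h h0) hsΘ hr2
  have hchain : ∀ r s : V × Dual (ZMod p) V, Relation.ReflTransGen (Adj G) r s →
      (r.2 ∈ Θ ↔ s.2 ∈ Θ) := by
    intro r s h
    induction h with
    | refl => exact Iff.rfl
    | tail _ hbc ih => exact ih.trans (hadj _ _ hbc)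
  by_cases hex : ∃ c χ, Root G c χ ∧ χ ∈ Θ
  · right
    obtain ⟨c, χ, hr, hχ⟩ := hex
    rw [eq_top_iff, ← hΦ]
    change Submodule.span (ZMod p) {φ : Dual (ZMod p) V | ∃ a, Root G a φ} ≤ Θ
    apply Submodule.span_le.mpr
    rintro θ ⟨d, hd⟩
    exact (hchain (c, χ) (d, θ) (hconn (c, χ) (d, θ) hr hd)).mp hχ
  · left
    push Not at hex
    rw [eq_bot_iff]
    intro θ hθ
    rw [Submodule.mem_bot]
    apply LinearMap.ext
    intro w
    have hw : w ∈ centers G := by rw [hA]; exact Submodule.mem_top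
    have hw' : w ∈ Submodule.span (ZMod p) {a : V | ∃ φ, Root G a φ} := hw
    rw [LinearMap.zero_apply]
    refine Submodule.span_induction (p := fun w _ => θ w = 0) ?_ ?_ ?_ ?_ hw'
    · rintro c ⟨χ, hr⟩
      exact (hΘ c χ hr).resolve_left (hex c χ hr) θ hθ
    · exact map_zero θ
    · intro x y _ _ hx hy
      rw [map_add, hx, hy, add_zero]
    · intro k x _ hx
      rw [map_smul, hx, smul_zero]

end Cfsg.Agent.H60.McL
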