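import Mathlib
import Cfsg.Agent.H85.McLDefs

/-!
# S5075 team piece TV: an element of order `p` fixing a hyperplane is a transvection
-/

set_option autoImplicit false

namespace Cfsg.Agent.H60.McL

open Module Cfsg.Agent.H85.McL

variable {p : ℕ} [Fact p.Prime] {V : Type*} [AddCommGroup V] [Module (ZMod p) V]

/-- **S5075-TV.** -/
theorem tv_of_order [Finite V] (t : V ≃ₗ[ZMod p] V) (ho : orderOf t = p)
    (hk : Module.finrank (ZMod p) ↥(LinearMap.ker ((t : V →ₗ[ZMod p] V) - LinearMap.id)) + 1 =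
      Module.finrank (ZMod p) V) :
    ∃ (a : V) (φ : Dual (ZMod p) V), a ≠ 0 ∧ φ ≠ 0 ∧ φ a = 0 ∧ ∀ x, t x = x + φ x • a := by
  haveI : Module.Finite (ZMod p) V := Module.Finite.of_finite
  obtain ⟨N, hN⟩ : ∃ N : V →ₗ[ZMod p] V, N = (t : V →ₗ[ZMod p] V) - LinearMap.id := ⟨_, rfl⟩
  rw [← hN] at hk
  have hNx : ∀ x, N x = t x - x := by intro x; rw [hN]; rfl
  have hrn := LinearMap.finrank_range_add_finrank_ker N
  have hr1 : Module.finrank (ZMod p) ↥(LinearMap.range N) = 1 := by omega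
  obtain ⟨a', ha', hspan⟩ := finrank_eq_one_iff'.mp hr1
  obtain ⟨a, haR⟩ : ∃ a : V, a = (a' : V) := ⟨_, rfl⟩
  have ha0 : a ≠ 0 := by
    rw [haR]; intro h; exact ha' (Subtype.ext h)
  have hc : ∀ x, ∃ c : ZMod p, c • a = N x := by
    intro x
    obtain ⟨c, hc⟩ := hspan ⟨N x, LinearMap.mem_range_self N x⟩
    exact ⟨c, by rw [haR]; exact congrArg Subtype.val hc⟩
  obtain ⟨ψ, hψ⟩ : ∃ ψ : Dual (ZMod p) V, ψ a ≠ 0 := by
    by_contra hcon
    push Not at hcon
    exact ha0 ((Module.forall_dual_apply_eq_zero_iff (ZMod p) a).mp hcon)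
  obtain ⟨φ, hφ⟩ : ∃ φ : Dual (ZMod p) V, φ = (ψ a)⁻¹ • (ψ ∘ₗ N) := ⟨_, rfl⟩
  have hφx : ∀ x, φ x • a = N x := by
    intro x
    obtain ⟨c, hc⟩ := hc x
    have h1 : φ x = c := by
      rw [hφ, LinearMap.smul_apply, LinearMap.comp_apply, ← hc, map_smul, smul_eq_mul, smul_eq_mul,
        mul_comm c (ψ a), ← mul_assoc, inv_mul_cancel₀ hψ, one_mul]
    rw [h1, hc]
  have htx : ∀ x, t x = x + φ x • a := by
    intro x
    rw [hφx, hNx]; abel
  have hφ0 : φ ≠ 0 := by
    intro h0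
    obtain ⟨w, hw⟩ := LinearMap.mem_range.mp a'.2
    have h1 := hφx w
    rw [h0, LinearMap.zero_apply, zero_smul, hw, ← haR] at h1
    exact ha0 h1.symm
  refine ⟨a, φ, ha0, hφ0, ?_, htx⟩
  have hpow : ∀ n : ℕ, (t ^ n) a = ((1 + φ a) ^ n) • a := by
    intro n
    induction n with
    | zero => simp
    | succ n ih =>
      rw [pow_succ' t n, LinearEquiv.mul_apply, ih, map_smul, htx a, pow_succ (1 + φ a) n]
      module
  have htp : t ^ p = 1 := by
    have h1 := pow_orderOf_eq_one t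
    rwa [ho] at h1
  have h1 := hpow p
  have e1 : (1 : V ≃ₗ[ZMod p] V) a = a := rfl
  rw [htp, ZMod.pow_card, e1] at h1
  have h2 : φ a • a = 0 := by
    have h3 : (1 + φ a) • a = a + φ a • a := by module
    rw [h3] at h1
    have h4 : a + φ a • a = a + 0 := by rw [add_zero]; exact h1.symm
    exact add_left_cancel h4
  rcases smul_eq_zero.mp h2 with h | h
  · exact h
  · exact absurd h ha0

end Cfsg.Agent.H60.McL
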