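import Mathlib

/-!
# S3592-B11, S3592-B5 (team pieces for helper93): Sylow normalizers from the element counts
-/

set_option autoImplicit false

namespace Cfsg.Agent.H60.Nse

open Subgroup

theorem normalizer_sylow11_of_count {G : Type*} [Group G] [Finite G] (hG : Nat.card G = 7920)
    (hc : Nat.card {g : G // orderOf g = 11} = 10 * Nat.card (Sylow 11 G))
    (h11 : Nat.card {g : G // orderOf g = 11} ∈
      ({0, 1, 165, 440, 990, 1320, 1440, 1584, 1980} : Finset ℕ))
    (P : Sylow 11 G) : Nat.card (normalizer ((P : Subgroup G) : Set G)) = 55 := by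
  haveI : Fact (Nat.Prime 11) := ⟨by norm_num⟩
  have hmod : Nat.card (Sylow 11 G) % 11 = 1 := card_sylow_modEq_one 11 G
  rw [hc] at h11
  simp only [Finset.mem_insert, Finset.mem_singleton] at h11
  have hn : Nat.card (Sylow 11 G) = 144 := by omega
  have hidx : (normalizer ((P : Subgroup G) : Set G)).index = 144 := by
    have h0 := Sylow.card_eq_index_normalizer P
    rw [hn] at h0
    exact h0.symm
  have h1 := Subgroup.card_mul_index (normalizer ((P : Subgroup G) : Set G))
  rw [hidx, hG] at h1
  omega

theorem normalizer_sylow5_of_count {G : Type*} [Group G] [Finite G] (hG : Nat.card G = 7920)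
    (hc : Nat.card {g : G // orderOf g = 5} = 4 * Nat.card (Sylow 5 G))
    (h5 : Nat.card {g : G // orderOf g = 5} ∈
      ({0, 1, 165, 440, 990, 1320, 1440, 1584, 1980} : Finset ℕ))
    (P : Sylow 5 G) : Nat.card (normalizer ((P : Subgroup G) : Set G)) = 20 := by
  haveI : Fact (Nat.Prime 5) := ⟨by norm_num⟩
  have hmod : Nat.card (Sylow 5 G) % 5 = 1 := card_sylow_modEq_one 5 G
  rw [hc] at h5
  simp only [Finset.mem_insert, Finset.mem_singleton] at h5
  have hn : Nat.card (Sylow 5 G) = 396 := by omega
  have hidx : (normalizer ((P : Subgroup G) : Set G)).index = 396 := by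
    have h0 := Sylow.card_eq_index_normalizer P
    rw [hn] at h0
    exact h0.symm
  have h1 := Subgroup.card_mul_index (normalizer ((P : Subgroup G) : Set G))
  rw [hidx, hG] at h1
  omega

example {G : Type*} [Group G] [Finite G] (hG : Nat.card G = 7920)
    (hc : Nat.card {g : G // orderOf g = 11} = 10 * Nat.card (Sylow 11 G))
    (h11 : Nat.card {g : G // orderOf g = 11} ∈
      ({0, 1, 165, 440, 990, 1320, 1440, 1584, 1980} : Finset ℕ))
    (P : Sylow 11 G) : Nat.card (normalizer ((P : Subgroup G) : Set G)) = 55 :=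
  normalizer_sylow11_of_count hG hc h11 P

example {G : Type*} [Group G] [Finite G] (hG : Nat.card G = 7920)
    (hc : Nat.card {g : G // orderOf g = 5} = 4 * Nat.card (Sylow 5 G))
    (h5 : Nat.card {g : G // orderOf g = 5} ∈
      ({0, 1, 165, 440, 990, 1320, 1440, 1584, 1980} : Finset ℕ))
    (P : Sylow 5 G) : Nat.card (normalizer ((P : Subgroup G) : Set G)) = 20 :=
  normalizer_sylow5_of_count hG hc h5 P

end Cfsg.Agent.H60.Nse
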