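import Mathlib
import Cfsg.Agent.H69.RSDefs
/-!
Team project S2361 (helper69), piece RS-A4: `E ⊴ S`, `|E| = 4`, `|S| = 12`, `3 ∤ |C_G(E)|`, Sylow
2-subgroups of `G` commutative: `S` normalises a Sylow 2-subgroup of `G`.

Proof: the Sylow 2-subgroups of `G` containing `E` all lie in `C = C_G(E)` and are permuted
transitively by `C`, so their number is prime to 3; an element `σ ∈ S` of order 3 permutes them,
so fixes one of them, `P`; then `S = E⟨σ⟩ ≤ N_G(P)`.
-/
set_option autoImplicit false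

namespace Cfsg.Agent.H60.RS

open Cfsg.Agent.H45.S8 Cfsg.Agent.H69.RS

universe u

/-- conjugating a Sylow subgroup containing `E` by an element normalising `E`. -/
theorem le_smul_sylow {G : Type u} [Group G] {p : ℕ} (E : Subgroup G) (P : Sylow p G)
    (hEP : E ≤ (P : Subgroup G)) (g : G) (hg : g ∈ Subgroup.normalizer (E : Set G)) :
    E ≤ ((g • P : Sylow p G) : Subgroup G) := by
  intro e he
  rw [Sylow.coe_subgroup_smul, Subgroup.mem_pointwise_smul_iff_inv_smul_mem]
  have h1 : (MulAut.conj g)⁻¹ • e = g⁻¹ * e * g := by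
    simp [MulAut.smul_def]
  rw [h1]
  apply hEP
  have h2 := (Subgroup.mem_normalizer_iff.mp hg (g⁻¹ * e * g)).mpr
    (by simpa [mul_assoc] using he)
  exact h2

/-- the sub-action of a subgroup `H ≤ N_G(E)` on the Sylow `p`-subgroups containing `E`. -/
def sylAbove {G : Type u} [Group G] (p : ℕ) (E H : Subgroup G)
    (hH : H ≤ Subgroup.normalizer (E : Set G)) : SubMulAction ↥H (Sylow p G) where
  carrier := {P | E ≤ (P : Subgroup G)}
  smul_mem' := fun c P hP => le_smul_sylow E P hP (c : G) (hH c.2)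

/-- (A4) `E ⊴ S`, `|E| = 4`, `|S| = 12`, `3 ∤ |C_G(E)|`, Sylow 2-subgroups of `G` commutative:
`S` normalises a Sylow 2-subgroup of `G`. -/
theorem a4 : StA4.{u} := by
  intro G _ _ hcomm E S hES hSN hE hS h3
  haveI : Fact (Nat.Prime 2) := ⟨Nat.prime_two⟩
  haveI : Fact (Nat.Prime 3) := ⟨Nat.prime_three⟩
  have hE2 : IsPGroup 2 ↥E := IsPGroup.of_card (n := 2) (by rw [hE]; rfl)
  obtain ⟨P₀, hP₀⟩ := hE2.exists_le_sylow
  have hXC : ∀ P : Sylow 2 G, E ≤ (P : Subgroup G) →
      (P : Subgroup G) ≤ Subgroup.centralizer (E : Set G) := by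
    intro P hP x hx
    rw [Subgroup.mem_centralizer_iff]
    intro e he
    exact hcomm P e (hP he) x hx
  have h3S : 3 ∣ Nat.card ↥S := by
    rw [hS]
    norm_num
  obtain ⟨σ, hσ⟩ := exists_prime_orderOf_dvd_card' 3 h3S
  have hσ' : orderOf (σ : G) = 3 := by
    rw [Subgroup.orderOf_coe]
    exact hσ
  have hTS : Subgroup.zpowers (σ : G) ≤ S := by
    rw [Subgroup.zpowers_le]
    exact σ.2
  have hTcard : Nat.card ↥(Subgroup.zpowers (σ : G)) = 3 := by
    rw [Nat.card_zpowers, hσ']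
  have hT3 : IsPGroup 3 ↥(Subgroup.zpowers (σ : G)) := by
    apply IsPGroup.of_card (n := 1)
    rw [hTcard]
    rfl
  have hTN : Subgroup.zpowers (σ : G) ≤ Subgroup.normalizer (E : Set G) := hTS.trans hSN
  have hCN : Subgroup.centralizer (E : Set G) ≤ Subgroup.normalizer (E : Set G) :=
    Subgroup.centralizer_le_normalizer _
  haveI : MulAction.IsPretransitive ↥(Subgroup.centralizer (E : Set G))
      ↥(sylAbove 2 E (Subgroup.centralizer (E : Set G)) hCN) := by
    constructor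
    intro P Q
    have hP := hXC P.1 P.2
    have hQ := hXC Q.1 Q.2
    obtain ⟨c, hc⟩ := MulAction.exists_smul_eq ↥(Subgroup.centralizer (E : Set G))
      (P.1.subtype hP) (Q.1.subtype hQ)
    refine ⟨c, ?_⟩
    rw [Sylow.smul_subtype hP c] at hc
    have h1 := Sylow.subtype_injective hc
    apply Subtype.ext
    exact h1
  have hXCcard : ¬ 3 ∣ Nat.card ↥(sylAbove 2 E (Subgroup.centralizer (E : Set G)) hCN) := by
    intro hd
    apply h3
    have h1 := MulAction.index_stabilizer_of_transitive ↥(Subgroup.centralizer (E : Set G))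
      (⟨P₀, hP₀⟩ : ↥(sylAbove 2 E (Subgroup.centralizer (E : Set G)) hCN))
    have h2 := Subgroup.index_dvd_card (MulAction.stabilizer ↥(Subgroup.centralizer (E : Set G))
      (⟨P₀, hP₀⟩ : ↥(sylAbove 2 E (Subgroup.centralizer (E : Set G)) hCN)))
    rw [h1] at h2
    exact hd.trans h2
  have hXTcard : ¬ 3 ∣ Nat.card ↥(sylAbove 2 E (Subgroup.zpowers (σ : G)) hTN) := hXCcard
  obtain ⟨P, hP⟩ := hT3.nonempty_fixed_point_of_prime_not_dvd_card
    ↥(sylAbove 2 E (Subgroup.zpowers (σ : G)) hTN) hXTcard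
  have hσP : (σ : G) • P.1 = P.1 := by
    have h1 := hP ⟨(σ : G), Subgroup.mem_zpowers _⟩
    exact congrArg Subtype.val h1
  have hσN : (σ : G) ∈ Subgroup.normalizer ((P.1 : Subgroup G) : Set G) :=
    Sylow.smul_eq_iff_mem_normalizer.mp hσP
  refine ⟨P.1, ?_⟩
  have hsup : E ⊔ Subgroup.zpowers (σ : G) = S := by
    apply Subgroup.eq_of_le_of_card_ge (sup_le hES hTS)
    have h4 : 4 ∣ Nat.card ↥(E ⊔ Subgroup.zpowers (σ : G)) := by
      rw [← hE]
      exact Subgroup.card_dvd_of_le le_sup_left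
    have h3' : 3 ∣ Nat.card ↥(E ⊔ Subgroup.zpowers (σ : G)) := by
      rw [← hTcard]
      exact Subgroup.card_dvd_of_le le_sup_right
    have h12 : 4 * 3 ∣ Nat.card ↥(E ⊔ Subgroup.zpowers (σ : G)) := by
      have hc : (4 : ℕ).Coprime 3 := by norm_num
      exact hc.mul_dvd_of_dvd_of_dvd h4 h3'
    rw [hS]
    exact Nat.le_of_dvd Nat.card_pos h12
  have hle : E ⊔ Subgroup.zpowers (σ : G) ≤ Subgroup.normalizer ((P.1 : Subgroup G) : Set G) := by
    apply sup_le
    · exact (show E ≤ (P.1 : Subgroup G) from P.2).trans Subgroup.le_normalizer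
    · rw [Subgroup.zpowers_le]
      exact hσN
  intro s hs
  have hs' : s ∈ E ⊔ Subgroup.zpowers (σ : G) := by
    rw [hsup]
    exact hs
  exact hle hs'

example : StA4.{u} := a4

end Cfsg.Agent.H60.RS

#print axioms Cfsg.Agent.H60.RS.a4
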