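import Mathlib
import Cfsg.Agent.H69.RSDefs
/-!
Team project S2361 (helper69), piece RS-FOUR: from (THREEFIX), the centraliser of a subgroup of
order 4 of a transitive group of order `q³(q-1)(q³+1)` on `q³ + 1` points (`q = 3^(2m+1)`) has
order prime to 3.
-/
set_option autoImplicit false

namespace Cfsg.Agent.H60.RS

open Cfsg.Agent.H45.S8 Cfsg.Agent.H69.RS

universe u v

/-- `q = 3^(2m+1) ≡ 3 (mod 4)`. -/
theorem qq_mod_four (m : ℕ) : qq m % 4 = 3 := by
  unfold qq
  rw [pow_succ, pow_mul, Nat.mul_mod, Nat.pow_mod]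
  norm_num

/-- `q³(q-1) ≡ 2 (mod 4)`. -/
theorem not_four_dvd_borel (m : ℕ) : ¬ 4 ∣ qq m ^ 3 * (qq m - 1) := by
  have h := qq_mod_four m
  intro hd
  have h1 : qq m ^ 3 % 4 = 3 := by rw [Nat.pow_mod, h]
  have h2 : (qq m - 1) % 4 = 2 := by omega
  have h3 : qq m ^ 3 * (qq m - 1) % 4 = 2 := by rw [Nat.mul_mod, h1, h2]
  omega

/-- (FOUR) the centraliser of a subgroup of order 4 has order prime to 3. -/
theorem four (h : StThreeFix.{u, v}) : StFour.{u, v} := by
  intro G _ _ Ω _ _ _ m hG hΩ h3 E hE hdiv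
  haveI : Fact (Nat.Prime 3) := ⟨Nat.prime_three⟩
  obtain ⟨z, hz⟩ := exists_prime_orderOf_dvd_card' 3 hdiv
  have hz' : orderOf (z : G) = 3 := by
    rw [Subgroup.orderOf_coe]
    exact hz
  have hN3 : IsPGroup 3 ↥(Subgroup.zpowers (z : G)) := by
    apply IsPGroup.of_card (n := 1)
    rw [Nat.card_zpowers, hz']
    rfl
  have hNbot : Subgroup.zpowers (z : G) ≠ ⊥ := by
    intro hbot
    rw [Subgroup.zpowers_eq_bot] at hbot
    rw [hbot, orderOf_one] at hz'
    omega
  obtain ⟨x, hx⟩ := h G Ω m hΩ h3 (Subgroup.zpowers (z : G)) hN3 hNbot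
  have hEle : E ≤ MulAction.stabilizer G x := by
    intro e he
    apply hx
    apply Subgroup.centralizer_le_normalizer
    rw [Subgroup.mem_centralizer_iff]
    intro n hn
    obtain ⟨k, rfl⟩ := hn
    have hcomm : Commute e (z : G) := (Subgroup.mem_centralizer_iff.mp z.2 e he)
    exact ((hcomm.zpow_right k).eq).symm
  have hidx : (MulAction.stabilizer G x).index = qq m ^ 3 + 1 := by
    rw [MulAction.index_stabilizer_of_transitive, hΩ]
  have hcard : Nat.card ↥(MulAction.stabilizer G x) = qq m ^ 3 * (qq m - 1) := by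
    have h1 := Subgroup.card_mul_index (MulAction.stabilizer G x)
    rw [hidx, hG] at h1
    unfold GG at h1
    exact Nat.eq_of_mul_eq_mul_right (Nat.succ_pos _) h1
  have h4 : 4 ∣ qq m ^ 3 * (qq m - 1) := by
    rw [← hcard, ← hE]
    exact Subgroup.card_dvd_of_le hEle
  exact not_four_dvd_borel m h4

example (h : StThreeFix.{u, v}) : StFour.{u, v} := four h

end Cfsg.Agent.H60.RS

#print axioms Cfsg.Agent.H60.RS.four
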