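import Mathlib
import Cfsg.Agent.H69.RSDefs
/-!
Team project S2361 (helper69), piece RS-THREEFIX: in a group acting on a set of size `q³ + 1`
(`q = 3^(2m+1)`) in which an element fixing three points is an involution or trivial, the
normaliser of a non-trivial 3-subgroup fixes a point.
-/
set_option autoImplicit false

namespace Cfsg.Agent.H60.RS

open Cfsg.Agent.H45.S8 Cfsg.Agent.H69.RS

universe u v

/-- `q = 3^(2m+1)` is divisible by 3. -/
theorem qq_mod_three (m : ℕ) : qq m % 3 = 0 := by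
  unfold qq
  rw [pow_succ]
  exact Nat.mul_mod_left _ _

/-- `q³ + 1 ≡ 1 (mod 3)`. -/
theorem qq_cube_succ_mod_three (m : ℕ) : (qq m ^ 3 + 1) % 3 = 1 := by
  have h : qq m ^ 3 % 3 = 0 := by
    rw [Nat.pow_mod, qq_mod_three]
  omega

/-- an element of 3-power order whose square is trivial is trivial. -/
theorem eq_one_of_sq_of_three_pow {G : Type u} [Group G] (g : G) (k : ℕ) (hgg : g * g = 1)
    (hk : g ^ (3 ^ k) = 1) : g = 1 := by
  have hodd : 3 ^ k % 2 = 1 := by
    rw [Nat.pow_mod]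
    simp
  obtain ⟨j, hj⟩ : ∃ j, 3 ^ k = 2 * j + 1 := ⟨3 ^ k / 2, by omega⟩
  have : g ^ (3 ^ k) = g := by
    rw [hj, pow_succ, pow_mul, pow_two, hgg, one_pow, one_mul]
  rw [← this, hk]

/-- (THREEFIX) the normaliser of a non-trivial 3-subgroup fixes a point. -/
theorem threeFix : StThreeFix.{u, v} := by
  intro G _ _ Ω _ _ m hΩ h3 N hN hNbot
  haveI : Fact (Nat.Prime 3) := ⟨Nat.prime_three⟩
  have hmod : Nat.card Ω ≡ Nat.card (MulAction.fixedPoints ↥N Ω) [MOD 3] :=
    hN.card_modEq_card_fixedPoints Ω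
  have hΩ3 : Nat.card Ω % 3 = 1 := by
    rw [hΩ]
    exact qq_cube_succ_mod_three m
  have hfix3 : Nat.card (MulAction.fixedPoints ↥N Ω) % 3 = 1 := by
    have h := hmod
    unfold Nat.ModEq at h
    omega
  have hFcard : (MulAction.fixedPoints ↥N Ω).ncard % 3 = 1 := by
    rw [← Nat.card_coe_set_eq]
    exact hfix3
  have hle : (MulAction.fixedPoints ↥N Ω).ncard ≤ 2 := by
    by_contra hlt
    push Not at hlt
    obtain ⟨x, y, z, hx, hy, hz, hxy, hxz, hyz⟩ :=
      (Set.two_lt_ncard_iff (Set.toFinite (MulAction.fixedPoints ↥N Ω))).mp hlt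
    apply hNbot
    rw [Subgroup.eq_bot_iff_forall]
    intro g hg
    have hgx : g • x = x := hx ⟨g, hg⟩
    have hgy : g • y = y := hy ⟨g, hg⟩
    have hgz : g • z = z := hz ⟨g, hg⟩
    have hgg := h3 g x y z hxy hxz hyz hgx hgy hgz
    obtain ⟨k, hk⟩ := hN ⟨g, hg⟩
    have hk' : g ^ (3 ^ k) = 1 := by
      have := congrArg Subtype.val hk
      simp at this
      exact this
    exact eq_one_of_sq_of_three_pow g k hgg hk'
  have h1 : (MulAction.fixedPoints ↥N Ω).ncard = 1 := by omega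
  obtain ⟨x, hx⟩ := Set.ncard_eq_one.mp h1
  refine ⟨x, ?_⟩
  intro s hs
  rw [MulAction.mem_stabilizer_iff]
  have hx' : x ∈ MulAction.fixedPoints ↥N Ω := by
    rw [hx]
    exact Set.mem_singleton x
  have hsx : s • x ∈ MulAction.fixedPoints ↥N Ω := by
    rw [MulAction.mem_fixedPoints]
    intro n
    have hmem : s⁻¹ * (n : G) * s ∈ N := by
      have h := (Subgroup.mem_normalizer_iff.mp hs (s⁻¹ * (n : G) * s)).mpr
        (by simpa [mul_assoc] using n.2)
      exact h
    have h2 : (s⁻¹ * (n : G) * s) • x = x := hx' ⟨_, hmem⟩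
    show (n : G) • s • x = s • x
    calc (n : G) • s • x = s • ((s⁻¹ * (n : G) * s) • x) := by
          simp [smul_smul, mul_assoc]
      _ = s • x := by rw [h2]
  rw [hx] at hsx
  exact hsx

example : StThreeFix.{u, v} := threeFix

end Cfsg.Agent.H60.RS

#print axioms Cfsg.Agent.H60.RS.threeFix
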