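import Mathlib
import Cfsg.Agent.H7.RVDefs
/-!
Team project S3626 (helper7), piece RV-EXB: `M_k` has an element of order `(q + 1)/2`
(from an element of `SL₂(q)` of order `q + 1`).
-/
set_option autoImplicit false

namespace Cfsg.Agent.H60.RV

open Matrix Cfsg.Agent.H7.RV

open scoped MatrixGroups

section gen

variable (F : Type) [Field F] [CharP F 3]

/-- the identity of `M_k` -/
theorem mkEl_zero_one (k : ℕ) : mkEl F k 0 1 = 1 := by
  refine SemidirectProduct.ext rfl (Subtype.ext ?_)
  show act F k 1 = 1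
  exact map_one _

/-- product of two elements with trivial translation part -/
theorem mkEl_zero_mul (k : ℕ) (p q : ℤˣ × SL(2, F)) :
    mkEl F k 0 p * mkEl F k 0 q = mkEl F k 0 (p * q) := by
  rw [mkEl_mul]
  congr 1
  funext i
  simp [actFun_zero]

/-- powers of an element with trivial translation part -/
theorem mkEl_zero_pow (k : ℕ) (p : ℤˣ × SL(2, F)) (n : ℕ) :
    mkEl F k 0 p ^ n = mkEl F k 0 (p ^ n) := by
  induction n with
  | zero => rw [pow_zero, pow_zero, mkEl_zero_one]
  | succ n ih => rw [pow_succ, ih, mkEl_zero_mul, pow_succ]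

/-- an element with trivial translation part is trivial iff its linear part is -/
theorem mkEl_zero_eq_one_iff (k : ℕ) (p : ℤˣ × SL(2, F)) :
    mkEl F k 0 p = 1 ↔ act F k p = 1 := by
  constructor
  · intro h
    have h1 := congrArg (fun x : Mk F k => ((x.right : ↥(linGrp F k)) :
      MulAut (Multiplicative (Fin k → Matrix (Fin 2) (Fin 2) F)))) h
    exact h1
  · intro h
    refine SemidirectProduct.ext rfl (Subtype.ext ?_)
    exact h

/-- for `k ≥ 1` the linear part is trivial iff it fixes every matrix -/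
theorem act_eq_one_iff (k : ℕ) (hk : 1 ≤ k) (p : ℤˣ × SL(2, F)) :
    act F k p = 1 ↔ ∀ X : Matrix (Fin 2) (Fin 2) F, actFun F p X = X := by
  constructor
  · intro h X
    have h1 := congrArg (fun a : MulAut (Multiplicative (Fin k → Matrix (Fin 2) (Fin 2) F)) =>
      a (Multiplicative.ofAdd (fun _ => X))) h
    simp only [act_apply, MulAut.one_apply] at h1
    have h2 := congrFun (Multiplicative.ofAdd.injective h1) ⟨0, hk⟩
    exact h2
  · intro h
    refine MulEquiv.ext fun T => ?_
    rw [act_apply]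
    apply Multiplicative.toAdd.injective
    funext i
    exact h _

/-- `mkEl 0 (1, g)` is trivial iff `g = ±1` -/
theorem mkEl_zero_one_eq_one_iff (hOne : StOne) (k : ℕ) (hk : 1 ≤ k) (g : SL(2, F)) :
    mkEl F k 0 (1, g) = 1 ↔ (g = 1 ∨ g = -1) := by
  rw [mkEl_zero_eq_one_iff, act_eq_one_iff F k hk]
  constructor
  · intro h
    exact (hOne F (1, g) h).2
  · rintro (h | h) X
    · rw [h]
      exact actFun_one F X
    · rw [h]
      exact actFun_neg_one F X

end gen

/-- (EXB) `M_k` has an element of order `(q + 1)/2` -/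
theorem exB (hSing : StSing) (hOne : StOne) (hSq : StSq) : StExB := by
  intro F _ _ _ m k hF hk
  obtain ⟨g₀, hg₀⟩ := hSing F m hF
  have hodd : 3 ^ (2 * m + 1) % 2 = 1 := by
    rw [Nat.pow_mod]
    simp
  obtain ⟨N, hN⟩ : ∃ N, (3 ^ (2 * m + 1) + 1) / 2 = N := ⟨_, rfl⟩
  have hN2 : N * 2 = 3 ^ (2 * m + 1) + 1 := by omega
  rw [hN]
  have hpow : ∀ n : ℕ, mkEl F k 0 (1, g₀) ^ n = mkEl F k 0 (1, g₀ ^ n) := by
    intro n
    rw [mkEl_zero_pow, Prod.pow_mk, one_pow]
  have hh : g₀ ^ N = 1 ∨ g₀ ^ N = -1 := by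
    apply hSq F
    rw [← pow_mul, hN2, ← hg₀]
    exact pow_orderOf_eq_one g₀
  have key : ∀ n : ℕ, mkEl F k 0 (1, g₀) ^ n = 1 ↔ N ∣ n := by
    intro n
    rw [hpow, mkEl_zero_one_eq_one_iff F hOne k hk]
    constructor
    · intro h
      have h2 : g₀ ^ (n * 2) = 1 := by
        rw [pow_mul]
        rcases h with h | h
        · rw [h, one_pow]
        · rw [h]
          exact neg_one_sq
      have h3 : orderOf g₀ ∣ n * 2 := orderOf_dvd_of_pow_eq_one h2
      rw [hg₀, ← hN2] at h3
      exact Nat.dvd_of_mul_dvd_mul_right (by norm_num) h3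
    · rintro ⟨j, rfl⟩
      rw [pow_mul]
      rcases hh with h | h
      · left
        rw [h, one_pow]
      · rw [h]
        exact neg_one_pow_eq_or _ j
  refine ⟨mkEl F k 0 (1, g₀), ?_⟩
  exact Nat.dvd_antisymm (orderOf_dvd_of_pow_eq_one ((key N).mpr dvd_rfl))
    ((key _).mp (pow_orderOf_eq_one _))

example (hSing : StSing) (hOne : StOne) (hSq : StSq) : StExB := exB hSing hOne hSq

end Cfsg.Agent.H60.RV

#print axioms Cfsg.Agent.H60.RV.exB
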