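import Mathlib
import Cfsg.Agent.H7.RVDefs
import Cfsg.Agent.H62.PSL2Spec
import Cfsg.Agent.H65.SL2Lemmas
/-!
Team project S3626 (helper7), piece RV-SING: `SL₂(q)`, `q = 3^(2m+1)`, has an element of order
`q + 1`.

Proof: `PSL₂(q)` has an element `x` of order `(q + 1)/2` (`H62.psl2_exists_orderOf`); a lift `g`
of `x` to `SL₂(q)` has order `(q + 1)/2` or `q + 1`; as `(q + 1)/2` is even and `-1` is the only
involution of `SL₂(q)`, the first case is impossible.
-/
set_option autoImplicit false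

namespace Cfsg.Agent.H60.RV

open Matrix Cfsg.Agent.H7.RV

open scoped MatrixGroups

/-- a central element of `SL₂(F)` squares to `1`. -/
theorem sl2_center_sq (F : Type) [Field F] (c : SL(2, F))
    (hc : c ∈ Subgroup.center SL(2, F)) : c * c = 1 := by
  rw [Matrix.SpecialLinearGroup.mem_center_iff] at hc
  obtain ⟨r, hr, hrc⟩ := hc
  apply Subtype.ext
  rw [Matrix.SpecialLinearGroup.coe_mul, ← hrc]
  have hr2 : r * r = 1 := by
    rw [← pow_two]
    simpa using hr
  rw [← map_mul, hr2, map_one]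
  rfl

/-- (SING) `SL₂(q)` has an element of order `q + 1` -/
theorem sing : StSing := by
  intro F _ _ _ m hF
  haveI : Fact (Nat.Prime 3) := ⟨Nat.prime_three⟩
  have hcard : Nat.card F = 3 ^ (2 * m + 1) := by
    rw [Nat.card_eq_fintype_card, hF]
  have hq3 : 3 ≤ 3 ^ (2 * m + 1) := by
    calc 3 = 3 ^ 1 := by norm_num
      _ ≤ 3 ^ (2 * m + 1) := Nat.pow_le_pow_right (by norm_num) (by omega)
  obtain ⟨x, hx⟩ := Cfsg.Agent.H62.psl2_exists_orderOf (F := F) 3 (Nat.card F + 1) (by omega)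
    (Or.inr rfl) Nat.prime_three
  rw [hcard] at hx
  have h4 : 3 ^ (2 * m + 1) % 4 = 3 := by
    rw [pow_succ, pow_mul, Nat.mul_mod, Nat.pow_mod]
    norm_num
  obtain ⟨j, hj⟩ : ∃ j, 3 ^ (2 * m + 1) + 1 = 4 * j := ⟨(3 ^ (2 * m + 1) + 1) / 4, by omega⟩
  have hj0 : 0 < j := by omega
  have hgcd : Nat.gcd (4 * j) 2 = 2 := by
    apply Nat.gcd_eq_right
    exact ⟨2 * j, by ring⟩
  have hx' : orderOf x = 2 * j := by
    rw [hx, hj, hgcd]
    omega
  obtain ⟨g, rfl⟩ := QuotientGroup.mk_surjective x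
  refine ⟨g, ?_⟩
  rw [hj]
  have h2 : (2 : F) ≠ 0 := by
    intro h
    have h' : ((2 : ℕ) : F) = 0 := by exact_mod_cast h
    rw [CharP.cast_eq_zero_iff F 3] at h'
    omega
  have hcen : g ^ (2 * j) ∈ Subgroup.center SL(2, F) := by
    rw [← QuotientGroup.eq_one_iff, QuotientGroup.mk_pow, ← hx']
    exact pow_orderOf_eq_one _
  have hdvd1 : 2 * j ∣ orderOf g := by
    rw [← hx']
    exact orderOf_map_dvd (QuotientGroup.mk' _) g
  have hdvd2 : orderOf g ∣ 4 * j := by
    apply orderOf_dvd_of_pow_eq_one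
    have e : 4 * j = 2 * j * 2 := by ring
    rw [e, pow_mul, pow_two]
    exact sl2_center_sq F _ hcen
  obtain ⟨c, hc⟩ := hdvd1
  have hc2 : c ∣ 2 := by
    rw [hc] at hdvd2
    have h1 : 2 * j * c ∣ 2 * j * 2 := by
      have e : 2 * j * 2 = 4 * j := by ring
      rw [e]
      exact hdvd2
    exact Nat.dvd_of_mul_dvd_mul_left (by omega) h1
  have hc12 : c = 1 ∨ c = 2 := (Nat.dvd_prime Nat.prime_two).mp hc2
  rcases hc12 with rfl | rfl
  · exfalso
    have ho : orderOf g = j + j := by omega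
    have hh : g ^ j * g ^ j = 1 := by
      rw [← pow_add, ← ho]
      exact pow_orderOf_eq_one g
    have hxj : (QuotientGroup.mk g : SL(2, F) ⧸ Subgroup.center SL(2, F)) ^ j = 1 := by
      rcases Cfsg.Agent.H65.SL2.eq_one_or_neg_one h2 (g ^ j) hh with h | h
      · rw [← QuotientGroup.mk_pow, h]
        rfl
      · rw [← QuotientGroup.mk_pow, h, QuotientGroup.eq_one_iff, Subgroup.mem_center_iff]
        intro y
        simp
    have h5 := orderOf_dvd_of_pow_eq_one hxj
    rw [hx'] at h5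
    have h6 := Nat.le_of_dvd hj0 h5
    omega
  · rw [hc]
    ring

example : StSing := sing

end Cfsg.Agent.H60.RV

#print axioms Cfsg.Agent.H60.RV.sing
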