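import Mathlib
import Cfsg.Agent.H97.SuLDefs

/-!
# S2334 / S2335 team project (helper97): piece SuL-REIG (helper60)

A commutative subgroup has a joint eigenvector in every nonzero stable subspace.
-/

set_option autoImplicit false

namespace Cfsg.Agent.H60.SuL

open Module Cfsg.Agent.H17 Cfsg.Agent.H97.SuL

universe u w

/-- SuL-REIG. -/
theorem reig : StREig.{w} := by
  intro G _ _ V _ _ _ ρ A hcomm U hU hstab
  classical
  have hSne : {U' : Submodule ℂ V | U' ≠ ⊥ ∧ U' ≤ U ∧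
      ∀ a ∈ A, ∀ x ∈ U', ρ a x ∈ U'}.Nonempty := ⟨U, hU, le_rfl, hstab⟩
  obtain ⟨U', ⟨hU'0, hU'U, hU'stab⟩, hmin⟩ :=
    (wellFounded_lt (α := Submodule ℂ V)).has_min _ hSne
  have key : ∀ a ∈ A, ∃ c : ℂ, ∀ x ∈ U', ρ a x = c • x := by
    intro a ha
    have hnt : Nontrivial ↥U' := Submodule.nontrivial_iff_ne_bot.mpr hU'0
    obtain ⟨c, hc⟩ := Module.End.exists_eigenvalue ((ρ a).restrict (hU'stab a ha))
    obtain ⟨w, hw⟩ := hc.exists_hasEigenvector
    have hw1 : ρ a (w : V) = c • (w : V) := congrArg Subtype.val hw.apply_eq_smul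
    have hEmem : ∀ x, x ∈ U' ⊓ LinearMap.ker (ρ a - c • (1 : V →ₗ[ℂ] V)) ↔
        x ∈ U' ∧ ρ a x = c • x := by
      intro x
      rw [Submodule.mem_inf, LinearMap.mem_ker, LinearMap.sub_apply, LinearMap.smul_apply,
        Module.End.one_apply, sub_eq_zero]
    have hES : U' ⊓ LinearMap.ker (ρ a - c • (1 : V →ₗ[ℂ] V)) ∈
        {U' : Submodule ℂ V | U' ≠ ⊥ ∧ U' ≤ U ∧ ∀ a ∈ A, ∀ x ∈ U', ρ a x ∈ U'} := by
      refine ⟨?_, inf_le_left.trans hU'U, ?_⟩
      · intro h0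
        have hmem : (w : V) ∈ U' ⊓ LinearMap.ker (ρ a - c • (1 : V →ₗ[ℂ] V)) :=
          (hEmem _).mpr ⟨w.2, hw1⟩
        rw [h0, Submodule.mem_bot] at hmem
        exact hw.2 (Subtype.ext hmem)
      · intro b hb x hx
        obtain ⟨hx1, hx2⟩ := (hEmem x).mp hx
        refine (hEmem _).mpr ⟨hU'stab b hb x hx1, ?_⟩
        have e1 : ρ a (ρ b x) = ρ b (ρ a x) := by
          have h1 : ρ a * ρ b = ρ b * ρ a := by rw [← map_mul, ← map_mul, hcomm a ha b hb]
          exact congrArg (fun f : V →ₗ[ℂ] V => f x) h1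
        rw [e1, hx2, map_smul]
    have hEU' : U' ⊓ LinearMap.ker (ρ a - c • (1 : V →ₗ[ℂ] V)) = U' := by
      by_contra hne
      exact hmin _ hES (lt_of_le_of_ne inf_le_left hne)
    refine ⟨c, fun x hx => ?_⟩
    rw [← hEU'] at hx
    exact ((hEmem x).mp hx).2
  obtain ⟨v, hv, hv0⟩ := Submodule.exists_mem_ne_zero_of_ne_bot hU'0
  refine ⟨v, hU'U hv, hv0, fun g => if h : g ∈ A then Classical.choose (key g h) else 0, ?_⟩
  intro a ha
  show ρ a v = (if h : a ∈ A then Classical.choose (key a h) else 0) • v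
  rw [dif_pos ha]
  exact Classical.choose_spec (key a ha) v hv

example : Cfsg.Agent.H97.SuL.StREig.{w} := reig

end Cfsg.Agent.H60.SuL
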