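import Mathlib
import Cfsg.Agent.H97.SuLDefs

/-!
# S2334 / S2335 team project (helper97): piece SuL-RIND (helper60)

Joint eigenspaces for pairwise distinct eigen-functions are independent (dimension form).
-/

set_option autoImplicit false

namespace Cfsg.Agent.H60.SuL

open Module Cfsg.Agent.H17 Cfsg.Agent.H97.SuL

universe u w

/-- Vectors of joint eigenspaces for pairwise distinct eigen-functions that sum to zero are all
zero. -/
theorem eig_indep {B : Type w} {V : Type} [AddCommGroup V] [Module ℂ V] (T : B → V →ₗ[ℂ] V)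
    {I : Type} (μ : I → B → ℂ) (hμ : Function.Injective μ) :
    ∀ (s : Finset I) (v : I → V), (∀ i ∈ s, v i ∈ Cfsg.Agent.H44.eigSub T (μ i)) →
      ∑ i ∈ s, v i = 0 → ∀ i ∈ s, v i = 0 := by
  classical
  intro s
  induction s using Finset.induction_on with
  | empty =>
    intro v _ _ i hi
    exact absurd hi (Finset.notMem_empty i)
  | insert i₀ s hi₀ ih =>
    intro v hv hsum
    have key : ∀ i ∈ s, v i = 0 := by
      intro i hi
      have hne : μ i ≠ μ i₀ := by
        intro h
        rw [hμ h] at hi
        exact hi₀ hi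
      obtain ⟨b, hb⟩ : ∃ b, μ i b ≠ μ i₀ b := by
        by_contra hcon
        push Not at hcon
        exact hne (funext hcon)
      have hz : ∑ j ∈ s, (μ j b - μ i₀ b) • v j = 0 := by
        have h2 := congrArg (T b) hsum
        rw [map_zero, map_sum, Finset.sum_insert hi₀] at h2
        rw [Finset.sum_insert hi₀] at hsum
        have h3 : ∑ j ∈ s, T b (v j) = ∑ j ∈ s, μ j b • v j :=
          Finset.sum_congr rfl (fun j hj => hv j (Finset.mem_insert_of_mem hj) b)
        have h5 : T b (v i₀) = μ i₀ b • v i₀ := hv i₀ (Finset.mem_insert_self _ _) b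
        rw [h5, h3] at h2
        have h4 : v i₀ = - ∑ j ∈ s, v j := eq_neg_of_add_eq_zero_left hsum
        rw [h4, smul_neg, neg_add_eq_sub] at h2
        simp only [sub_smul, Finset.sum_sub_distrib, ← Finset.smul_sum]
        exact h2
      have h1 := ih (fun j => (μ j b - μ i₀ b) • v j)
        (fun j hj => Submodule.smul_mem _ _ (hv j (Finset.mem_insert_of_mem hj))) hz i hi
      exact (smul_eq_zero.mp h1).resolve_left (sub_ne_zero.mpr hb)
    intro i hi
    rcases Finset.mem_insert.mp hi with rfl | hi'
    · rw [Finset.sum_insert hi₀, Finset.sum_eq_zero key, add_zero] at hsum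
      exact hsum
    · exact key i hi'

/-- SuL-RIND. -/
theorem rind : StRInd.{w} := by
  intro B V _ _ _ T I _ μ hμ U hU W hUW
  classical
  let Φ : (∀ i, ↥(U i)) →ₗ[ℂ] V := ∑ i, (U i).subtype ∘ₗ LinearMap.proj i
  have hΦ : ∀ u, Φ u = ∑ i, (u i : V) := by
    intro u
    simp [Φ, LinearMap.sum_apply]
  have hinj : Function.Injective Φ := by
    rw [← LinearMap.ker_eq_bot, LinearMap.ker_eq_bot']
    intro u hu
    rw [hΦ] at hu
    have h1 := eig_indep T μ hμ Finset.univ (fun i => (u i : V)) (fun i _ => hU i (u i).2) hu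
    funext i
    exact Subtype.ext (h1 i (Finset.mem_univ i))
  have hrange : LinearMap.range Φ ≤ W := by
    rintro _ ⟨u, rfl⟩
    rw [hΦ]
    exact Submodule.sum_mem _ (fun i _ => hUW i (u i).2)
  calc ∑ i, finrank ℂ (U i) = finrank ℂ (∀ i, ↥(U i)) := (Module.finrank_pi_fintype ℂ).symm
    _ = finrank ℂ (LinearMap.range Φ) := (LinearMap.finrank_range_of_inj hinj).symm
    _ ≤ finrank ℂ W := Submodule.finrank_mono hrange

example : Cfsg.Agent.H97.SuL.StRInd.{w} := rind

end Cfsg.Agent.H60.SuL
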