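import Mathlib
import Cfsg.Agent.H97.SuLDefs

/-!
# S2334 / S2335 team project (helper97): piece SuL-RNT (helper60)

A commutative subgroup acting nontrivially on a stable subspace has a joint eigenvector there
with a nontrivial character.
-/

set_option autoImplicit false

namespace Cfsg.Agent.H60.SuL

open Module Cfsg.Agent.H17 Cfsg.Agent.H97.SuL

universe u w

/-- SuL-RNT. -/
theorem rnt (hE : StREig.{w}) : StRNt.{w} := by
  intro G _ _ V _ _ _ ρ A hcomm U hstab hnt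
  obtain ⟨a₀, ha₀, x₀, hx₀, hne⟩ := hnt
  have hW0 : U.map (ρ a₀ - 1) ≠ ⊥ := by
    intro h0
    have hmem : (ρ a₀ - 1) x₀ ∈ U.map (ρ a₀ - 1) := Submodule.mem_map_of_mem hx₀
    rw [h0, Submodule.mem_bot, LinearMap.sub_apply, Module.End.one_apply, sub_eq_zero] at hmem
    exact hne hmem
  have hWstab : ∀ b ∈ A, ∀ y ∈ U.map (ρ a₀ - 1), ρ b y ∈ U.map (ρ a₀ - 1) := by
    rintro b hb _ ⟨x, hx, rfl⟩
    refine ⟨ρ b x, hstab b hb x hx, ?_⟩
    have e1 : ρ a₀ (ρ b x) = ρ b (ρ a₀ x) := by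
      have h1 : ρ a₀ * ρ b = ρ b * ρ a₀ := by rw [← map_mul, ← map_mul, hcomm a₀ ha₀ b hb]
      exact congrArg (fun f : V →ₗ[ℂ] V => f x) h1
    rw [LinearMap.sub_apply, LinearMap.sub_apply, Module.End.one_apply, Module.End.one_apply,
      map_sub, e1]
  obtain ⟨v, hvW, hv0, χ, hχ⟩ := hE ρ A hcomm (U.map (ρ a₀ - 1)) hW0 hWstab
  obtain ⟨x, hx, hxv⟩ := hvW
  rw [LinearMap.sub_apply, Module.End.one_apply] at hxv
  have hvU : v ∈ U := by
    rw [← hxv]
    exact U.sub_mem (hstab a₀ ha₀ x hx) hx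
  refine ⟨v, hvU, hv0, χ, hχ, a₀, ha₀, ?_⟩
  intro h1
  have hgv : ρ a₀ v = v := by rw [hχ a₀ ha₀, h1, one_smul]
  have hgx : ρ a₀ x = x + v := by rw [← hxv]; abel
  have hpow : ∀ k : ℕ, (ρ a₀ ^ k) x = x + (k : ℂ) • v := by
    intro k
    induction k with
    | zero => simp
    | succ k ih =>
      rw [pow_succ', Module.End.mul_apply, ih, map_add, map_smul, hgx, hgv]
      push_cast
      rw [add_smul, one_smul]
      abel
  have hN : 0 < orderOf a₀ := orderOf_pos a₀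
  have h2 := hpow (orderOf a₀)
  rw [← map_pow, pow_orderOf_eq_one, map_one, Module.End.one_apply] at h2
  have h3 : ((orderOf a₀ : ℕ) : ℂ) • v = 0 := by
    have h4 : x + 0 = x + ((orderOf a₀ : ℕ) : ℂ) • v := by rw [add_zero]; exact h2
    exact (add_left_cancel h4).symm
  rcases smul_eq_zero.mp h3 with h5 | h5
  · exact hN.ne' (by exact_mod_cast h5)
  · exact hv0 h5

example : Cfsg.Agent.H97.SuL.StREig.{w} → Cfsg.Agent.H97.SuL.StRNt.{w} := rnt

end Cfsg.Agent.H60.SuL
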