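import Mathlib
import Cfsg.Agent.H60.SuzAut

set_option autoImplicit false

namespace Cfsg.Agent.H60

open Finset

open scoped Classical

/-- Fixed points of a map of order dividing 3 on a stable finite set, modulo 3. -/
theorem card_fix_mod3 {α : Type*} (A : α → α) (hA3 : ∀ a, A (A (A a)) = a)
    (X : Finset α) (hX : ∀ a ∈ X, A a ∈ X) :
    X.card ≡ (X.filter (fun a => A a = a)).card [MOD 3] := by
  haveI : Fact (Nat.Prime 3) := ⟨Nat.prime_three⟩
  let f : Function.End ↥X := fun x => ⟨A x.1, hX x.1 x.2⟩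
  have hf : f ^ 3 ^ 1 = 1 := by
    rw [pow_one]
    have h3 : f ^ 3 = f * f * f := by rw [pow_succ, pow_two]
    rw [h3]
    funext x
    exact Subtype.ext (hA3 x.1)
  have h := Equiv.Perm.card_fixedPoints_modEq (f := f) (p := 3) (n := 1) hf
  have h2 : Nat.card ↥(Function.fixedPoints f) = (X.filter (fun a => A a = a)).card := by
    rw [← Fintype.card_coe (X.filter _), ← Nat.card_eq_fintype_card]
    apply Nat.card_congr
    exact
      { toFun := fun y => ⟨y.1.1, Finset.mem_filter.mpr ⟨y.1.2, congrArg Subtype.val y.2⟩⟩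
        invFun := fun z => ⟨⟨z.1, (Finset.mem_filter.mp z.2).1⟩,
          Subtype.ext (Finset.mem_filter.mp z.2).2⟩
        left_inv := fun y => rfl
        right_inv := fun z => rfl }
  rw [← h2]
  convert h using 1
  · rw [Fintype.card_coe]
  · rw [Nat.card_eq_fintype_card]

section n2

variable {F : Type*} [Field F] [Fintype F] [hS : SuzFin F 2]

theorem autA_eq_id_of_order_three (ρ : MulAut (Par F 2)) (hρ3 : ∀ x, ρ (ρ (ρ x)) = x)
    (hfix : ∀ z ∈ Subgroup.center (Par F 2), ρ z = z) : ∀ a, autA ρ a = a := by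
  have h2 := suz_two F 2
  have hAadd : ∀ a a', autA ρ (a + a') = autA ρ a + autA ρ a' := autA_add ρ
  have hA3 : ∀ a, autA ρ (autA ρ (autA ρ a)) = a := by
    intro a
    have h1 := autA_spec ρ (ρ (ρ (Par.lift a)))
    rw [hρ3, autA_spec ρ (ρ (Par.lift a)), autA_spec ρ (Par.lift a)] at h1
    simp only [Par.lift_a] at h1
    exact h1.symm
  have hAN : ∀ a, (autA ρ a) ^ (2 ^ 2 + 1) = a ^ (2 ^ 2 + 1) := by
    intro a
    have h1 := autA_norm ρ a
    rw [hfix _ (Par.zc_mem_center _ _)] at h1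
    exact (Par.zc_inj h1).symm
  have hA0 : autA ρ 0 = 0 := by
    have := hAadd 0 0
    rw [add_zero] at this
    linear_combination -this
  set Fix : Finset F := Finset.univ.filter (fun a => autA ρ a = a) with hFix
  have hmemFix : ∀ a, a ∈ Fix ↔ autA ρ a = a := by
    intro a
    rw [hFix, Finset.mem_filter]
    simp
  have h16 : (Finset.univ : Finset F).card = 16 := by
    rw [Finset.card_univ, hS.card]
    norm_num
  have hmod : 16 ≡ Fix.card [MOD 3] := by
    have := card_fix_mod3 (autA ρ) hA3 Finset.univ (fun _ _ => Finset.mem_univ _)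
    rw [h16] at this
    exact this
  have hdvd : Fix.card ∣ 16 := by
    let D : AddSubgroup F :=
      { carrier := {a | autA ρ a = a}
        add_mem' := by
          intro a b ha hb
          show autA ρ (a + b) = a + b
          rw [hAadd, ha, hb]
        zero_mem' := hA0
        neg_mem' := by
          intro a ha
          have e : -a = a := by linear_combination (-a) * h2
          rw [e]
          exact ha }
    have h1 := AddSubgroup.card_addSubgroup_dvd_card D
    have h3 : Nat.card ↥D = Fix.card := by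
      rw [Nat.card_eq_fintype_card, hFix, ← Fintype.card_subtype]
      rfl
    rw [h3, Nat.card_eq_fintype_card, hS.card] at h1
    exact h1
  -- the fibres of the norm
  have hK3 : ((K0 F 2).erase 0).card = 3 := by
    rw [Finset.card_erase_of_mem (zero_mem_K0 2), K0_card]
    norm_num
  have hXle : ∀ c : F, (Finset.univ.filter (fun a : F => a ^ (2 ^ 2 + 1) = c)).card ≤ 5 := by
    intro c
    have hsub : Finset.univ.filter (fun a : F => a ^ (2 ^ 2 + 1) = c)
        ⊆ (Polynomial.nthRoots (2 ^ 2 + 1) c).toFinset := by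
      intro x hx
      rw [Multiset.mem_toFinset, Polynomial.mem_nthRoots (Nat.succ_pos _)]
      exact (Finset.mem_filter.mp hx).2
    calc (Finset.univ.filter (fun a : F => a ^ (2 ^ 2 + 1) = c)).card
        ≤ (Polynomial.nthRoots (2 ^ 2 + 1) c).toFinset.card := Finset.card_le_card hsub
      _ ≤ Multiset.card (Polynomial.nthRoots (2 ^ 2 + 1) c) := Multiset.toFinset_card_le _
      _ ≤ 2 ^ 2 + 1 := Polynomial.card_nthRoots _ _
      _ = 5 := by norm_num
  have hsum : ∑ c ∈ (K0 F 2).erase 0, (Finset.univ.filter (fun a : F => a ^ (2 ^ 2 + 1) = c)).card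
      = 15 := by
    have h1 : ((Finset.univ : Finset F).erase 0).card = 15 := by
      rw [Finset.card_erase_of_mem (Finset.mem_univ _), h16]
    have hmaps : ∀ x ∈ (Finset.univ : Finset F).erase 0,
        x ^ (2 ^ 2 + 1) ∈ (K0 F 2).erase 0 := by
      intro x hx
      rw [Finset.mem_erase]
      exact ⟨pow_ne_zero _ (Finset.ne_of_mem_erase hx), norm_mem_K0 2 x⟩
    rw [← h1, Finset.card_eq_sum_card_fiberwise hmaps]
    apply Finset.sum_congr rfl
    intro c hc
    congr 1
    ext a
    simp only [Finset.mem_filter, Finset.mem_univ, true_and, Finset.mem_erase, ne_eq]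
    constructor
    · intro h
      refine ⟨⟨?_, trivial⟩, h⟩
      rintro rfl
      rw [zero_pow (Nat.succ_ne_zero _)] at h
      exact (Finset.ne_of_mem_erase hc) h.symm
    · intro h
      exact h.2
  have hXcard : ∀ c ∈ (K0 F 2).erase 0,
      (Finset.univ.filter (fun a : F => a ^ (2 ^ 2 + 1) = c)).card = 5 := by
    intro c hc
    by_contra hne
    have hlt : (Finset.univ.filter (fun a : F => a ^ (2 ^ 2 + 1) = c)).card < 5 :=
      lt_of_le_of_ne (hXle c) hne
    have := Finset.sum_lt_sum (fun i _ => hXle i) ⟨c, hc, hlt⟩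
    rw [hsum, Finset.sum_const, hK3] at this
    norm_num at this
  have hXfix : ∀ c ∈ (K0 F 2).erase 0,
      2 ≤ ((Finset.univ.filter (fun a : F => a ^ (2 ^ 2 + 1) = c)).filter
        (fun a => autA ρ a = a)).card := by
    intro c hc
    have h1 := card_fix_mod3 (autA ρ) hA3 (Finset.univ.filter (fun a : F => a ^ (2 ^ 2 + 1) = c))
      (by
        intro a ha
        rw [Finset.mem_filter] at ha ⊢
        exact ⟨Finset.mem_univ _, by rw [hAN, ha.2]⟩)
    rw [hXcard c hc] at h1
    unfold Nat.ModEq at h1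
    omega
  have hge : 7 ≤ Fix.card := by
    have hmaps : ∀ x ∈ Fix, x ^ (2 ^ 2 + 1) ∈ K0 F 2 := fun x _ => norm_mem_K0 2 x
    rw [Finset.card_eq_sum_card_fiberwise hmaps, ← Finset.add_sum_erase _ _ (zero_mem_K0 (F := F) 2)]
    have h0 : 1 ≤ (Fix.filter (fun a => a ^ (2 ^ 2 + 1) = 0)).card := by
      apply Finset.card_pos.mpr
      refine ⟨0, ?_⟩
      rw [Finset.mem_filter, hmemFix]
      exact ⟨hA0, zero_pow (Nat.succ_ne_zero _)⟩
    have h1 : ∀ c ∈ (K0 F 2).erase 0, 2 ≤ (Fix.filter (fun a => a ^ (2 ^ 2 + 1) = c)).card := by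
      intro c hc
      have h3 : Fix.filter (fun a => a ^ (2 ^ 2 + 1) = c)
          = (Finset.univ.filter (fun a : F => a ^ (2 ^ 2 + 1) = c)).filter
            (fun a => autA ρ a = a) := by
        ext a
        simp only [Finset.mem_filter, Finset.mem_univ, true_and, hmemFix]
        tauto
      rw [h3]
      exact hXfix c hc
    have h4 := Finset.card_nsmul_le_sum ((K0 F 2).erase 0)
      (fun c => (Fix.filter (fun a => a ^ (2 ^ 2 + 1) = c)).card) 2 h1
    rw [hK3] at h4
    simp only [smul_eq_mul] at h4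
    omega
  have hFixcard : Fix.card = 16 := by
    have hmem : Fix.card ∈ Nat.divisors 16 := Nat.mem_divisors.mpr ⟨hdvd, by norm_num⟩
    have hdiv : Nat.divisors 16 = {1, 2, 4, 8, 16} := by decide
    rw [hdiv] at hmem
    simp only [Finset.mem_insert, Finset.mem_singleton] at hmem
    unfold Nat.ModEq at hmod
    rcases hmem with h | h | h | h | h <;> omega
  have hFixuniv : Fix = Finset.univ := by
    apply Finset.eq_univ_of_card
    rw [hFixcard, hS.card]
    norm_num
  intro a
  exact (hmemFix a).mp (hFixuniv ▸ Finset.mem_univ a)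

/-- No two automorphisms of the model (for `q = 4`) generate a copy of `S₃`. -/
theorem aut_S3_false (τ ρ : MulAut (Par F 2)) (hτ : τ * τ = 1) (hρ : ρ * ρ * ρ = 1)
    (hρ1 : ρ ≠ 1) (hrel : τ * ρ * τ⁻¹ = ρ⁻¹) : False := by
  have fix_of_sq : ∀ σ : MulAut (Par F 2), σ * σ = 1 →
      ∀ z ∈ Subgroup.center (Par F 2), σ z = z := by
    intro σ hσ
    apply aut_fix_center σ 1
    intro x
    have := congrArg (fun f : MulAut (Par F 2) => f x) hσ
    simpa [MulAut.mul_apply] using this
  have hτfix := fix_of_sq τ hτ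
  have hσ : (ρ * τ * ρ⁻¹) * (ρ * τ * ρ⁻¹) = 1 := by
    have : (ρ * τ * ρ⁻¹) * (ρ * τ * ρ⁻¹) = ρ * (τ * τ) * ρ⁻¹ := by group
    rw [this, hτ]
    group
  have hσfix := fix_of_sq _ hσ
  have hτinv : τ⁻¹ = τ := inv_eq_of_mul_eq_one_left hτ
  have hρinv2 : ρ⁻¹ * ρ⁻¹ = ρ := by
    calc ρ⁻¹ * ρ⁻¹ = ρ⁻¹ * ρ⁻¹ * (ρ * ρ * ρ) := by rw [hρ, mul_one]
      _ = ρ := by group
  have hρeq : τ * (ρ * τ * ρ⁻¹) = ρ := by
    calc τ * (ρ * τ * ρ⁻¹) = (τ * ρ * τ⁻¹) * ρ⁻¹ := by rw [hτinv]; group
      _ = ρ⁻¹ * ρ⁻¹ := by rw [hrel]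
      _ = ρ := hρinv2
  have hρfix : ∀ z ∈ Subgroup.center (Par F 2), ρ z = z := by
    intro z hz
    rw [← hρeq, MulAut.mul_apply, hσfix z hz, hτfix z hz]
  have hρ3 : ∀ x, ρ (ρ (ρ x)) = x := by
    intro x
    have := congrArg (fun f : MulAut (Par F 2) => f x) hρ
    simpa [MulAut.mul_apply] using this
  have hA := autA_eq_id_of_order_three ρ hρ3 hρfix
  have hρ2 : ∀ x, ρ (ρ x) = x := by
    intro x
    have hkc : x⁻¹ * ρ x ∈ Subgroup.center (Par F 2) := by
      rw [Par.mem_center_iff]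
      simp only [Par.mul_a, Par.inv_a, autA_spec, hA]
      exact suz_add_self 2 x.a
    have hρx : ρ x = x * (x⁻¹ * ρ x) := by group
    have hkk : (x⁻¹ * ρ x) * (x⁻¹ * ρ x) = 1 :=
      (Par.mul_self_eq_one_iff _).mpr ((Par.mem_center_iff _).mp hkc)
    calc ρ (ρ x) = ρ (x * (x⁻¹ * ρ x)) := by rw [← hρx]
      _ = ρ x * ρ (x⁻¹ * ρ x) := map_mul _ _ _
      _ = ρ x * (x⁻¹ * ρ x) := by rw [hρfix _ hkc]
      _ = x * ((x⁻¹ * ρ x) * (x⁻¹ * ρ x)) := by group
      _ = x := by rw [hkk, mul_one]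
  apply hρ1
  apply MulEquiv.ext
  intro x
  have := hρ3 x
  rw [hρ2] at this
  exact this

end n2

end Cfsg.Agent.H60
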