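import Mathlib
import Cfsg.Agent.H60.Fpf3
import Cfsg.Agent.H3.Dihedral
import Cfsg.Agent.H39.Q8Sec

/-!
# helper60: order-64 groups with a symmetric group of degree three acting

`T64x`: a `T64` group together with an involutory automorphism `x` inverting `ρ`.  The fixed
points of `x` form a non-abelian group of order 8 (`T64x.fix_iso`), and the group contains two
non-commuting involutions (`T64x.exists_invol`).
-/

set_option autoImplicit false

namespace Cfsg.Agent.H60

open scoped Classical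

open scoped commutatorElement

/-- A non-abelian group of order 8 is dihedral or quaternion (given two generators). -/
theorem order8_d8_or_q8 {Q : Type*} [Group Q] [Finite Q] (hQ : Nat.card Q = 8) (a b z : Q)
    (hz : ⁅a, b⁆ = z) (hz1 : z ≠ 1) (hzz : z * z = 1) (hzc : ∀ g : Q, g * z = z * g)
    (ha : a * a = 1 ∨ a * a = z) (hb : b * b = 1 ∨ b * b = z) :
    Nonempty (Q ≃* DihedralGroup 4) ∨ Nonempty (Q ≃* QuaternionGroup 2) := by
  have hab : a * b = z * (b * a) := by rw [← hz, commutatorElement_def]; group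
  have dih : ∀ r t : Q, r * r ≠ 1 → (r * r) * (r * r) = 1 → t * t = 1 → t * r * t⁻¹ = r⁻¹ →
      Nonempty (Q ≃* DihedralGroup 4) := by
    intro r t hr2 hr4 ht hconj
    have hord : orderOf r = 4 := by
      have h1 : ¬ r ^ 2 ^ 1 = 1 := by rw [pow_one, pow_two]; exact hr2
      have h2 : r ^ 2 ^ (1 + 1) = 1 := by
        have e : r ^ 2 ^ (1 + 1) = (r * r) * (r * r) := by
          have e' : (2 : ℕ) ^ (1 + 1) = 4 := by norm_num
          rw [e']
          simp only [pow_succ, pow_zero, one_mul, mul_assoc]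
        rw [e]; exact hr4
      have e := orderOf_eq_prime_pow h1 h2
      rw [e]; norm_num
    have htr : t ∉ Subgroup.zpowers r := by
      intro hmem
      obtain ⟨k, hk⟩ := Subgroup.mem_zpowers_iff.mp hmem
      have hc : t * r = r * t := by
        rw [← hk]; exact ((Commute.refl r).zpow_left k).eq
      apply hr2
      have e1 : r = r⁻¹ := by rw [← hconj, hc]; group
      have e2 : r * r = r⁻¹ * r := by rw [← e1]
      rw [e2, inv_mul_cancel]
    exact Cfsg.Agent.H3.dihedral_of_gens 4 (by rw [hQ]) r t hord htr ht hconj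
  have four : ∀ g : Q, g * g = z → g * g * g * g = 1 := by
    intro g hg
    have e : g * g * g * g = (g * g) * (g * g) := by group
    rw [e, hg]; exact hzz
  rcases ha with ha | ha <;> rcases hb with hb | hb
  · left
    have ea : a⁻¹ = a := inv_eq_of_mul_eq_one_right ha
    have eb : b⁻¹ = b := inv_eq_of_mul_eq_one_right hb
    have hr : (a * b) * (a * b) = z := by
      rw [← hz, commutatorElement_def, ea, eb]
      group
    refine dih (a * b) a (by rw [hr]; exact hz1) (by rw [hr]; exact hzz) ha ?_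
    rw [mul_inv_rev, ea, eb, ← mul_assoc a a b, ha, one_mul]
  · left
    refine dih b a (by rw [hb]; exact hz1) (by rw [hb]; exact hzz) ha ?_
    have e1 : a * b * a⁻¹ = z * b := by rw [hab]; group
    rw [e1, ← hb]
    apply eq_inv_of_mul_eq_one_left
    exact four b hb
  · left
    refine dih a b (by rw [ha]; exact hz1) (by rw [ha]; exact hzz) hb ?_
    have ez : z⁻¹ = z := inv_eq_of_mul_eq_one_right hzz
    have e1 : b * a * b⁻¹ = z * a := by
      have e2 : b * a = z⁻¹ * (a * b) := by rw [hab]; group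
      rw [e2, ez]; group
    rw [e1, ← ha]
    apply eq_inv_of_mul_eq_one_left
    exact four a ha
  · right
    have ha4 : a ^ 4 = 1 := by
      have e : a ^ 4 = a * a * a * a := by
        simp only [pow_succ, pow_zero, one_mul]
      rw [e]; exact four a ha
    have hb2 : b ^ 2 = a ^ 2 := by rw [pow_two, pow_two, ha, hb]
    have ea : a⁻¹ = z * a := by
      symm
      apply eq_inv_of_mul_eq_one_left
      rw [← ha]
      exact four a ha
    have hab' : a * b = b * a⁻¹ := by
      rw [ea, hab, ← mul_assoc b z a, hzc b, mul_assoc]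
    have ha2 : a ^ 2 ≠ 1 := by rw [pow_two, ha]; exact hz1
    have hinj := Cfsg.Agent.H39.q8Lift_injective a b ha4 hb2 hab' ha2
    have hbij : Function.Bijective (Cfsg.Agent.H39.q8Lift a b ha4 hb2 hab') :=
      hinj.bijective_of_nat_card_le (by
        rw [hQ, Nat.card_eq_fintype_card, QuaternionGroup.card])
    exact ⟨(MulEquiv.ofBijective _ hbij).symm⟩

/-- In a group whose commutators lie in the normal subgroup `Z`, the map `t ↦ (t Z) (x t Z)`
is a homomorphism. -/
def nuHom {T : Type*} [Group T] (Z : Subgroup T) [Z.Normal] (hc : ∀ a b : T, ⁅a, b⁆ ∈ Z)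
    (x : T →* T) : T →* T ⧸ Z where
  toFun t := QuotientGroup.mk' Z t * QuotientGroup.mk' Z (x t)
  map_one' := by rw [map_one, map_one, map_one, one_mul]
  map_mul' t s := by
    have e : QuotientGroup.mk' Z s * QuotientGroup.mk' Z (x t)
        = QuotientGroup.mk' Z (x t) * QuotientGroup.mk' Z s := by
      rw [← commutatorElement_eq_one_iff_mul_comm, ← map_commutatorElement,
        QuotientGroup.mk'_apply, QuotientGroup.eq_one_iff]
      exact hc s (x t)
    rw [map_mul x, map_mul (QuotientGroup.mk' Z), map_mul (QuotientGroup.mk' Z)]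
    calc QuotientGroup.mk' Z t * QuotientGroup.mk' Z s
          * (QuotientGroup.mk' Z (x t) * QuotientGroup.mk' Z (x s))
        = QuotientGroup.mk' Z t * (QuotientGroup.mk' Z s * QuotientGroup.mk' Z (x t))
          * QuotientGroup.mk' Z (x s) := by group
      _ = QuotientGroup.mk' Z t * (QuotientGroup.mk' Z (x t) * QuotientGroup.mk' Z s)
          * QuotientGroup.mk' Z (x s) := by rw [e]
      _ = QuotientGroup.mk' Z t * QuotientGroup.mk' Z (x t)
          * (QuotientGroup.mk' Z s * QuotientGroup.mk' Z (x s)) := by group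

theorem nuHom_apply {T : Type*} [Group T] (Z : Subgroup T) [Z.Normal]
    (hc : ∀ a b : T, ⁅a, b⁆ ∈ Z) (x : T →* T) (t : T) :
    nuHom Z hc x t = QuotientGroup.mk' Z (t * x t) := by
  rw [map_mul]; rfl

theorem mem_ker_nuHom {T : Type*} [Group T] (Z : Subgroup T) [Z.Normal]
    (hc : ∀ a b : T, ⁅a, b⁆ ∈ Z) (x : T →* T) (t : T) :
    t ∈ (nuHom Z hc x).ker ↔ t * x t ∈ Z := by
  rw [MonoidHom.mem_ker, nuHom_apply, QuotientGroup.mk'_apply, QuotientGroup.eq_one_iff]

theorem card_map_mk {T : Type*} [Group T] [Finite T] (Z K : Subgroup T) [Z.Normal]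
    (hZK : Z ≤ K) :
    Nat.card ↥(K.map (QuotientGroup.mk' Z)) * Nat.card ↥Z = Nat.card ↥K := by
  let f : ↥K →* T ⧸ Z := (QuotientGroup.mk' Z).comp K.subtype
  have hr : f.range = K.map (QuotientGroup.mk' Z) := by
    ext q
    constructor
    · rintro ⟨k, rfl⟩; exact ⟨k.1, k.2, rfl⟩
    · rintro ⟨t, ht, rfl⟩; exact ⟨⟨t, ht⟩, rfl⟩
  have hk : f.ker = Z.subgroupOf K := by
    ext k
    rw [MonoidHom.mem_ker, Subgroup.mem_subgroupOf]
    exact QuotientGroup.eq_one_iff (k : T)
  have e1 := Subgroup.card_mul_index f.ker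
  rw [Subgroup.index_ker, hr, hk] at e1
  have e2 : Nat.card ↥(Z.subgroupOf K) = Nat.card ↥Z :=
    Nat.card_congr (Subgroup.subgroupOfEquivOfLe hZK).toEquiv
  rw [e2] at e1
  rw [mul_comm]; exact e1

/-- A `T64` group with an involutory automorphism `x` inverting `ρ`; `C` is the subgroup of fixed
points of `x`. -/
structure T64x {T : Type*} [Group T] (ρ x : MulAut T) (C : Subgroup T) : Prop where
  t64 : T64 ρ
  x2 : ∀ y, x (x y) = y
  xr : ∀ y, x (ρ y) = ρ (ρ (x y))
  hC : ∀ y, y ∈ C ↔ x y = y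

namespace T64x

variable {T : Type*} [Group T] {ρ x : MulAut T} {C : Subgroup T}

theorem exists_z0 (h : T64x ρ x C) : ∃ z₀ ∈ Subgroup.center T, z₀ ≠ 1 ∧ x z₀ = z₀ := by
  have hex : ∃ z ∈ Subgroup.center T, z ≠ 1 := by
    by_contra hcon
    push Not at hcon
    have e : Subgroup.center T = ⊥ := (Subgroup.eq_bot_iff_forall _).mpr hcon
    have hc := h.t64.cardZ
    rw [e, Subgroup.card_bot] at hc
    omega
  obtain ⟨z, hz, hz1⟩ := hex
  by_cases hxz : x z = z
  · exact ⟨z, hz, hz1, hxz⟩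
  · have hxzZ : x z ∈ Subgroup.center T := rinv_center z hz
    refine ⟨z * x z, mul_mem hz hxzZ, ?_, ?_⟩
    · intro e
      apply hxz
      exact (eq_inv_of_mul_eq_one_right e).trans (h.t64.inv_c hz)
    · rw [map_mul, h.x2]
      exact Subgroup.mem_center_iff.mp hz (x z)

theorem fix_center (h : T64x ρ x C) {z₀ : T} (hz₀ : z₀ ∈ Subgroup.center T) (hz₀1 : z₀ ≠ 1)
    (hxz₀ : x z₀ = z₀) {z : T} (hz : z ∈ Subgroup.center T) (hxz : x z = z) :
    z = 1 ∨ z = z₀ := by
  haveI := h.t64.finite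
  have hle : Subgroup.center T ⊓ C ≤ Subgroup.center T := inf_le_left
  have hdvd : Nat.card ↥(Subgroup.center T ⊓ C) ∣ 4 := by
    rw [← h.t64.cardZ]; exact Subgroup.card_dvd_of_le hle
  have hz₀m : z₀ ∈ Subgroup.center T ⊓ C := ⟨hz₀, (h.hC z₀).mpr hxz₀⟩
  have hzm : z ∈ Subgroup.center T ⊓ C := ⟨hz, (h.hC z).mpr hxz⟩
  have hρz₀ : ρ z₀ ∉ Subgroup.center T ⊓ C := by
    rintro ⟨-, hm'⟩
    have hm : ρ z₀ ∈ C := hm'
    rw [h.hC, h.xr, hxz₀] at hm
    exact hz₀1 (h.t64.fpf.fp z₀ (ρ.injective hm))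
  have hne4 : Nat.card ↥(Subgroup.center T ⊓ C) ≠ 4 := by
    intro h4
    have e : Subgroup.center T ⊓ C = Subgroup.center T :=
      Subgroup.eq_of_le_of_card_ge hle (by rw [h4, h.t64.cardZ])
    apply hρz₀
    rw [e]
    exact rinv_center z₀ hz₀
  have hne1 : Nat.card ↥(Subgroup.center T ⊓ C) ≠ 1 := by
    intro h1
    have e := Subgroup.eq_bot_of_card_eq _ h1
    rw [e, Subgroup.mem_bot] at hz₀m
    exact hz₀1 hz₀m
  have hnum : ∀ m : ℕ, m ∣ 4 → m ≠ 4 → m ≠ 1 → m = 2 := by
    intro m hm h4 h1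
    have hle4 := Nat.le_of_dvd (by norm_num) hm
    interval_cases m <;> omega
  have h2 := hnum _ hdvd hne4 hne1
  obtain ⟨y, -, hyu⟩ := (Nat.card_eq_two_iff' (1 : ↥(Subgroup.center T ⊓ C))).mp h2
  by_cases hz1 : z = 1
  · exact Or.inl hz1
  · right
    have e1 : (⟨z, hzm⟩ : ↥(Subgroup.center T ⊓ C)) = y :=
      hyu _ (fun e => hz1 (congrArg Subtype.val e))
    have e2 : (⟨z₀, hz₀m⟩ : ↥(Subgroup.center T ⊓ C)) = y :=
      hyu _ (fun e => hz₀1 (congrArg Subtype.val e))
    exact congrArg Subtype.val (e1.trans e2.symm)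

theorem inter (h : T64x ρ x C) {y : T} (hy : y ∈ C) (hρy : ρ y ∈ C) : y = 1 := by
  rw [h.hC] at hy hρy
  rw [h.xr, hy] at hρy
  exact h.t64.fpf.fp y (ρ.injective hρy)

theorem phi_inj (h : T64x ρ x C) :
    Function.Injective (fun p : ↥C × ↥C => (p.1 : T) * ρ (p.2 : T)) := by
  rintro ⟨c₁, c₁'⟩ ⟨c₂, c₂'⟩ he
  have he' : (c₁ : T) * ρ (c₁' : T) = (c₂ : T) * ρ (c₂' : T) := he
  have hy : (c₂' : T) * (c₁' : T)⁻¹ ∈ C := C.mul_mem c₂'.2 (C.inv_mem c₁'.2)
  have hρy : ρ ((c₂' : T) * (c₁' : T)⁻¹) ∈ C := by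
    have e : ρ ((c₂' : T) * (c₁' : T)⁻¹) = (c₂ : T)⁻¹ * (c₁ : T) := by
      rw [map_mul, map_inv]
      have e' : ρ (c₂' : T) = (c₂ : T)⁻¹ * ((c₁ : T) * ρ (c₁' : T)) := by rw [he']; group
      rw [e']; group
    rw [e]; exact C.mul_mem (C.inv_mem c₂.2) c₁.2
  have h1 := h.inter hy hρy
  have e2 : (c₂' : T) = c₁' := mul_inv_eq_one.mp h1
  have e1 : (c₁ : T) = c₂ := by
    rw [e2] at he'
    exact mul_right_cancel he'
  exact Prod.ext (Subtype.ext e1) (Subtype.ext e2.symm)

theorem card_le (h : T64x ρ x C) : Nat.card ↥C ≤ 8 := by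
  haveI := h.t64.finite
  have hle := Nat.card_le_card_of_injective _ h.phi_inj
  rw [Nat.card_prod, h.t64.card] at hle
  nlinarith

theorem card_ge (h : T64x ρ x C) : 8 ≤ Nat.card ↥C := by
  haveI := h.t64.finite
  obtain ⟨z₀, hz₀, hz₀1, hxz₀⟩ := h.exists_z0
  have hK : ∀ t, t ∈ (nuHom (Subgroup.center T) h.t64.comm x.toMonoidHom).ker
      ↔ t * x t ∈ Subgroup.center T :=
    fun t => mem_ker_nuHom (Subgroup.center T) h.t64.comm x.toMonoidHom t
  have hZK : Subgroup.center T ≤ (nuHom (Subgroup.center T) h.t64.comm x.toMonoidHom).ker := by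
    intro z hz
    rw [hK]
    exact mul_mem hz (rinv_center z hz)
  have hrange : (nuHom (Subgroup.center T) h.t64.comm x.toMonoidHom).range
      ≤ (nuHom (Subgroup.center T) h.t64.comm x.toMonoidHom).ker.map
        (QuotientGroup.mk' (Subgroup.center T)) := by
    rintro _ ⟨t, rfl⟩
    have hmem : t * x t ∈ (nuHom (Subgroup.center T) h.t64.comm x.toMonoidHom).ker := by
      rw [hK, map_mul, h.x2]
      have hw := Subgroup.mem_center_iff.mp (h.t64.sq (x t))
      have e : t * x t * (x t * t) = (x t * x t) * (t * t) := by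
        calc t * x t * (x t * t) = t * (x t * x t) * t := by group
          _ = (x t * x t) * t * t := by rw [hw t]
          _ = (x t * x t) * (t * t) := by group
      rw [e]
      exact mul_mem (h.t64.sq _) (h.t64.sq _)
    exact ⟨t * x t, hmem, (nuHom_apply (Subgroup.center T) h.t64.comm x.toMonoidHom t).symm⟩
  have c1 := Subgroup.card_mul_index (nuHom (Subgroup.center T) h.t64.comm x.toMonoidHom).ker
  rw [Subgroup.index_ker, h.t64.card] at c1
  have c2 := Subgroup.card_le_of_le hrange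
  have c3 := card_map_mk (Subgroup.center T) _ hZK
  rw [h.t64.cardZ] at c3
  have hdich : ∀ t ∈ (nuHom (Subgroup.center T) h.t64.comm x.toMonoidHom).ker,
      x t = t ∨ x t = t * z₀ := by
    intro t ht
    rw [hK] at ht
    have hzZ : t⁻¹ * x t ∈ Subgroup.center T := by
      have e : t⁻¹ * x t = (t * t)⁻¹ * (t * x t) := by group
      rw [e]
      exact mul_mem (inv_mem (h.t64.sq t)) ht
    have hxz : x (t⁻¹ * x t) = t⁻¹ * x t := by
      rw [map_mul, map_inv, h.x2]
      have e : (x t)⁻¹ * t = (t⁻¹ * x t)⁻¹ := by group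
      rw [e, h.t64.inv_c hzZ]
    rcases h.fix_center hz₀ hz₀1 hxz₀ hzZ hxz with e | e
    · left
      have e' : x t = t * (t⁻¹ * x t) := by group
      rw [e', e, mul_one]
    · right
      have e' : x t = t * (t⁻¹ * x t) := by group
      rw [e', e]
  have hKC : Nat.card ↥(nuHom (Subgroup.center T) h.t64.comm x.toMonoidHom).ker
      ≤ 2 * Nat.card ↥C := by
    by_cases hall : ∀ t ∈ (nuHom (Subgroup.center T) h.t64.comm x.toMonoidHom).ker, t ∈ C
    · have hle := Subgroup.card_le_of_le hall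
      omega
    · push Not at hall
      obtain ⟨w, hwK, hwC⟩ := hall
      have hxw : x w = w * z₀ :=
        (hdich w hwK).resolve_left (fun e => hwC ((h.hC w).mpr e))
      have hle : (nuHom (Subgroup.center T) h.t64.comm x.toMonoidHom).ker
          ≤ C ⊔ Subgroup.zpowers w := by
        intro t ht
        rcases hdich t ht with e | e
        · exact Subgroup.mem_sup_left ((h.hC t).mpr e)
        · have hm : t * w⁻¹ ∈ C := by
            rw [h.hC, map_mul, map_inv, e, hxw]
            group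
          have e' : t = (t * w⁻¹) * w := by group
          rw [e']
          exact mul_mem (Subgroup.mem_sup_left hm)
            (Subgroup.mem_sup_right (Subgroup.mem_zpowers w))
      have hzw := Subgroup.mem_center_iff.mp hz₀
      have h1 : w * w ∈ C := by
        rw [h.hC, map_mul, hxw]
        calc w * z₀ * (w * z₀) = w * (z₀ * w) * z₀ := by group
          _ = w * (w * z₀) * z₀ := by rw [← hzw w]
          _ = w * w * (z₀ * z₀) := by group
          _ = w * w := by rw [h.t64.zsq z₀ hz₀, mul_one]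
      have h2 : ∀ b ∈ C, w * b * w⁻¹ ∈ C := by
        intro b hb
        rw [h.hC, map_mul, map_mul, map_inv, hxw, (h.hC b).mp hb]
        calc w * z₀ * b * (w * z₀)⁻¹ = w * (z₀ * b) * z₀⁻¹ * w⁻¹ := by group
          _ = w * (b * z₀) * z₀⁻¹ * w⁻¹ := by rw [← hzw b]
          _ = w * b * w⁻¹ := by group
      exact (Subgroup.card_le_of_le hle).trans (card_sup_zpowers_le C w h1 h2)
  have c4 := Nat.mul_le_mul_left
    (Nat.card ↥(nuHom (Subgroup.center T) h.t64.comm x.toMonoidHom).ker) c2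
  by_contra hlt
  push Not at hlt
  nlinarith

theorem card_eq (h : T64x ρ x C) : Nat.card ↥C = 8 := le_antisymm h.card_le h.card_ge

theorem exists_noncomm (h : T64x ρ x C) : ∃ a ∈ C, ∃ b ∈ C, a * b ≠ b * a := by
  haveI := h.t64.finite
  by_contra hcon
  push Not at hcon
  have hbij : Function.Bijective (fun p : ↥C × ↥C => (p.1 : T) * ρ (p.2 : T)) :=
    h.phi_inj.bijective_of_nat_card_le (by rw [Nat.card_prod, h.card_eq, h.t64.card])
  have hCZ : C ≤ Subgroup.center T := by
    intro a ha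
    rw [Subgroup.mem_center_iff]
    intro g
    obtain ⟨⟨c, c'⟩, rfl⟩ := hbij.2 g
    show (c : T) * ρ (c' : T) * a = a * ((c : T) * ρ (c' : T))
    have e1 : a * (c : T) = (c : T) * a := hcon a ha c c.2
    have e2 : a * ρ (c' : T) = ρ (c' : T) * a := by
      rw [← commutatorElement_eq_one_iff_mul_comm, h.t64.cc_rho a c',
        commutatorElement_eq_one_iff_mul_comm.mpr (hcon a ha c' c'.2), map_one, map_one]
    calc (c : T) * ρ (c' : T) * a = (c : T) * (ρ (c' : T) * a) := mul_assoc _ _ _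
      _ = (c : T) * (a * ρ (c' : T)) := by rw [e2]
      _ = ((c : T) * a) * ρ (c' : T) := (mul_assoc _ _ _).symm
      _ = (a * (c : T)) * ρ (c' : T) := by rw [e1]
      _ = a * ((c : T) * ρ (c' : T)) := mul_assoc _ _ _
  have hle := Subgroup.card_le_of_le hCZ
  rw [h.card_eq, h.t64.cardZ] at hle
  omega

theorem struct (h : T64x ρ x C) : ∃ z₀ a b : T, z₀ ∈ Subgroup.center T ∧ z₀ ≠ 1 ∧ z₀ ∈ C ∧
    a ∈ C ∧ b ∈ C ∧ ⁅a, b⁆ = z₀ ∧ (a * a = 1 ∨ a * a = z₀) ∧ (b * b = 1 ∨ b * b = z₀) := by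
  obtain ⟨z₀, hz₀, hz₀1, hxz₀⟩ := h.exists_z0
  obtain ⟨a, ha, b, hb, hab⟩ := h.exists_noncomm
  have hfix : ∀ t ∈ C, x t = t := fun t ht => (h.hC t).mp ht
  have hcab : ⁅a, b⁆ = z₀ := by
    have hx : x ⁅a, b⁆ = ⁅a, b⁆ := by rw [map_commutatorElement, hfix a ha, hfix b hb]
    rcases h.fix_center hz₀ hz₀1 hxz₀ (h.t64.comm a b) hx with e | e
    · exact absurd (commutatorElement_eq_one_iff_mul_comm.mp e) hab
    · exact e
  have hsq : ∀ t ∈ C, t * t = 1 ∨ t * t = z₀ := fun t ht =>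
    h.fix_center hz₀ hz₀1 hxz₀ (h.t64.sq t) (by rw [map_mul, hfix t ht])
  exact ⟨z₀, a, b, hz₀, hz₀1, (h.hC z₀).mpr hxz₀, ha, hb, hcab, hsq a ha, hsq b hb⟩

/-- The fixed points of `x` form a dihedral or quaternion group of order 8. -/
theorem fix_iso (h : T64x ρ x C) :
    Nonempty (↥C ≃* DihedralGroup 4) ∨ Nonempty (↥C ≃* QuaternionGroup 2) := by
  haveI := h.t64.finite
  obtain ⟨z₀, a, b, hz₀, hz₀1, hz₀C, ha, hb, hcab, hasq, hbsq⟩ := h.struct
  refine order8_d8_or_q8 h.card_eq (⟨a, ha⟩ : ↥C) ⟨b, hb⟩ ⟨z₀, hz₀C⟩ (Subtype.ext hcab)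
    (fun e => hz₀1 (congrArg Subtype.val e)) (Subtype.ext (h.t64.zsq z₀ hz₀))
    (fun g => Subtype.ext (Subgroup.mem_center_iff.mp hz₀ g.1)) ?_ ?_
  · rcases hasq with e | e
    · exact Or.inl (Subtype.ext e)
    · exact Or.inr (Subtype.ext e)
  · rcases hbsq with e | e
    · exact Or.inl (Subtype.ext e)
    · exact Or.inr (Subtype.ext e)

/-- The group contains two non-commuting involutions. -/
theorem exists_invol (h : T64x ρ x C) : ∃ a' b' : T, R64 ρ a' b' := by
  haveI := h.t64.finite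
  obtain ⟨z₀, a, b, hz₀, hz₀1, hz₀C, ha, hb, hcab, hasq, hbsq⟩ := h.struct
  have t := h.t64
  have hz₀inv : z₀⁻¹ = z₀ := t.inv_c hz₀
  have hcba : ⁅b, a⁆ = z₀ := by rw [← commutatorElement_inv, hcab, hz₀inv]
  rcases hasq with ea | ea <;> rcases hbsq with eb | eb
  · exact ⟨a, b, t, ea, eb, by rw [hcab]; exact hz₀1⟩
  · refine ⟨a, a * b, t, ea, ?_, ?_⟩
    · rw [sq_mul_cc a b (t.comm b a), ea, eb, hcba, one_mul]
      exact t.zsq z₀ hz₀
    · rw [cc_mul_right a a b (t.comm a b), commutatorElement_self, one_mul, hcab]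
      exact hz₀1
  · refine ⟨a * b, b, t, ?_, eb, ?_⟩
    · rw [sq_mul_cc a b (t.comm b a), ea, eb, hcba, mul_one]
      exact t.zsq z₀ hz₀
    · rw [cc_mul_left a b b (t.comm b b), commutatorElement_self, mul_one, hcab]
      exact hz₀1
  · refine ⟨ρ a * b, ρ (ρ a) * b, t, ?_, ?_, ?_⟩
    · rw [sq_mul_cc (ρ a) b (t.comm b (ρ a)), ← map_mul, ea, eb, t.cc_rho b a, hcba,
        Subgroup.mem_center_iff.mp hz₀ (ρ z₀)]
      exact t.fpf.tr z₀
    · rw [sq_mul_cc (ρ (ρ a)) b (t.comm b (ρ (ρ a))), ← map_mul, ← map_mul, ea, eb,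
        t.cc_rho2 b a, hcba, Subgroup.mem_center_iff.mp hz₀ (ρ (ρ z₀))]
      exact t.fpf.tr' z₀
    · have e : ⁅ρ a * b, ρ (ρ a) * b⁆ = ρ (ρ z₀) * ρ z₀ := by
        rw [cc_mul_left (ρ a) b (ρ (ρ a) * b) (t.comm _ _),
          cc_mul_right (ρ a) (ρ (ρ a)) b (t.comm _ _),
          cc_mul_right b (ρ (ρ a)) b (t.comm _ _),
          commutatorElement_eq_one_iff_mul_comm.mpr (t.fpf.comm (ρ a)),
          commutatorElement_self, t.cc_rho_left a b, t.cc_rho2 b a, hcab, hcba, one_mul,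
          mul_one]
      rw [e]
      intro h1
      have h2 := t.fpf.tr' z₀
      rw [mul_assoc, h1, mul_one] at h2
      exact hz₀1 h2

end T64x

end Cfsg.Agent.H60
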