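import Mathlib
import Cfsg.Agent.H72.ZasDefs

/-!
# S0690 (Zassenhaus) team pieces ACTA / ACTB: shared lemmas on quaternion pairs
-/

set_option autoImplicit false

namespace Cfsg.Agent.H60.Zas

open Cfsg.Agent.H72.Zas
open scoped Pointwise

universe u

section Basic

variable {G : Type u} [Group G]

theorem orderOf_conj' (g x : G) : orderOf (g * x * g⁻¹) = orderOf x := by
  have h := orderOf_injective (MulAut.conj g).toMonoidHom (MulAut.conj g).injective x
  simpa using h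

theorem pow_four_eq (x : G) : x ^ 4 = x * x * (x * x) := by
  rw [show (4 : ℕ) = 2 + 2 from rfl, pow_add, pow_two]

theorem pow_four_of_orderOf {x : G} (h : orderOf x = 4) : x ^ 4 = 1 := by
  have h1 := pow_orderOf_eq_one x
  rwa [h] at h1

theorem sq_ne_one_of_orderOf {x : G} (h : orderOf x = 4) : x * x ≠ 1 := by
  intro h1
  have h2 : orderOf x ∣ 2 := orderOf_dvd_of_pow_eq_one (by rw [pow_two]; exact h1)
  rw [h] at h2
  have := Nat.le_of_dvd (by norm_num) h2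
  omega

theorem orderOf_four_of_sq {x : G} (h1 : x * x ≠ 1) (h2 : x ^ 4 = 1) : orderOf x = 4 := by
  have h := orderOf_eq_prime_pow (p := 2) (n := 1) (x := x)
    (by rw [pow_one, pow_two]; exact h1) (by norm_num; exact h2)
  simpa using h

/-- an element of order 4 in `zpowers v` (`v` of order 4) is `v` or `v⁻¹`. -/
theorem ord4_mem_zpowers {v x : G} (hv : orderOf v = 4) (hx : orderOf x = 4)
    (h : x ∈ Subgroup.zpowers v) : x = v ∨ x = v⁻¹ := by
  obtain ⟨k, rfl⟩ := Subgroup.mem_zpowers_iff.mp h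
  have h4 : v ^ 4 = 1 := pow_four_of_orderOf hv
  have hk : v ^ k = v ^ (k % 4) := by
    have h1 := (zpow_mod_orderOf v k).symm
    rw [hv] at h1
    exact_mod_cast h1
  have h0 : 0 ≤ k % 4 := Int.emod_nonneg k (by norm_num)
  have h1 : k % 4 < 4 := Int.emod_lt_of_pos k (by norm_num)
  obtain ⟨m, hm⟩ := Int.eq_ofNat_of_zero_le h0
  rw [hk, hm, zpow_natCast] at hx ⊢
  have hm4 : m < 4 := by omega
  interval_cases m
  · simp at hx
  · left; exact pow_one v
  · exfalso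
    have h2 : orderOf (v ^ 2) ∣ 2 := orderOf_dvd_of_pow_eq_one (by rw [← pow_mul]; exact h4)
    rw [hx] at h2
    have := Nat.le_of_dvd (by norm_num) h2
    omega
  · right
    exact eq_inv_of_mul_eq_one_left (by rw [← pow_succ]; exact h4)

theorem isPGroup_zpowers {p : ℕ} {y : G} (k : ℕ) (hy : y ^ p ^ k = 1) :
    IsPGroup p (Subgroup.zpowers y) := by
  rintro ⟨g, hg⟩
  obtain ⟨j, rfl⟩ := Subgroup.mem_zpowers_iff.mp hg
  refine ⟨k, Subtype.ext ?_⟩
  rw [Subgroup.coe_pow, Subgroup.coe_one, ← zpow_natCast, ← zpow_mul, mul_comm, zpow_mul,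
    zpow_natCast, hy, one_zpow]

/-- In a finite group, `x u x⁻¹ ∈ ⟨u⟩` implies that `x` normalizes `⟨u⟩`. -/
theorem mem_normalizer_zpowers [Finite G] {x u : G} (h : x * u * x⁻¹ ∈ Subgroup.zpowers u) :
    x ∈ Subgroup.normalizer ((Subgroup.zpowers u : Subgroup G) : Set G) := by
  have hmem : ∀ w ∈ Subgroup.zpowers u, x * w * x⁻¹ ∈ Subgroup.zpowers u := by
    intro w hw
    obtain ⟨k, rfl⟩ := Subgroup.mem_zpowers_iff.mp hw
    have e : x * u ^ k * x⁻¹ = (x * u * x⁻¹) ^ k := by rw [conj_zpow]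
    rw [e]
    exact Subgroup.zpow_mem _ h k
  have hinj : Function.Injective
      (fun w : Subgroup.zpowers u => (⟨x * w * x⁻¹, hmem w w.2⟩ : Subgroup.zpowers u)) := by
    intro a b hab
    have h1 : x * (a : G) * x⁻¹ = x * (b : G) * x⁻¹ := congrArg Subtype.val hab
    apply Subtype.ext
    simpa using h1
  have hsurj := Finite.surjective_of_injective hinj
  rw [Subgroup.mem_normalizer_iff]
  intro w
  refine ⟨hmem w, fun hw => ?_⟩
  obtain ⟨y, hy⟩ := hsurj ⟨_, hw⟩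
  have h1 : x * (y : G) * x⁻¹ = x * w * x⁻¹ := congrArg Subtype.val hy
  have h2 : (y : G) = w := by simpa using h1
  rw [← h2]; exact y.2

theorem conj_mem_zpowers_of_mem_normalizer {m u : G}
    (hm : m ∈ Subgroup.normalizer ((Subgroup.zpowers u : Subgroup G) : Set G)) :
    m * u * m⁻¹ ∈ Subgroup.zpowers u :=
  (Subgroup.mem_normalizer_iff.mp hm u).mp (Subgroup.mem_zpowers u)

/-- A `p`-element of a subgroup `M` containing the Sylow `p`-subgroup `S` of `G` is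
`M`-conjugate into `S`. -/
theorem conj_into_sylow [Finite G] {p : ℕ} [Fact p.Prime] (S : Sylow p G) (M : Subgroup G)
    (hSM : (S : Subgroup G) ≤ M) (x : G) (hx : x ∈ M) (k : ℕ) (hxk : x ^ p ^ k = 1) :
    ∃ m ∈ M, m * x * m⁻¹ ∈ (S : Subgroup G) := by
  have hp : IsPGroup p (Subgroup.zpowers (⟨x, hx⟩ : M)) :=
    isPGroup_zpowers k (Subtype.ext (by rw [Subgroup.coe_pow, Subgroup.coe_one]; exact hxk))
  obtain ⟨R, hR⟩ := hp.exists_le_sylow
  obtain ⟨m, hm⟩ := MulAction.exists_smul_eq M R (S.subtype hSM)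
  refine ⟨m, m.2, ?_⟩
  have h1 : (⟨x, hx⟩ : M) ∈ (R : Subgroup M) := hR (Subgroup.mem_zpowers _)
  have h2 : MulAut.conj m • (⟨x, hx⟩ : M) ∈ MulAut.conj m • (R : Subgroup M) :=
    Subgroup.smul_mem_pointwise_smul _ _ _ h1
  have h3 : ((m • R : Sylow p M) : Subgroup M) = ((S.subtype hSM : Sylow p M) : Subgroup M) := by
    rw [hm]
  rw [Sylow.smul_def, Sylow.pointwise_smul_def] at h3
  rw [h3, Sylow.coe_subtype, Subgroup.mem_subgroupOf] at h2
  simpa using h2

theorem conj_pm_trans {k₂ k₁ a b c : G} (h1 : k₁ * a * k₁⁻¹ = b ∨ k₁ * a * k₁⁻¹ = b⁻¹)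
    (h2 : k₂ * b * k₂⁻¹ = c ∨ k₂ * b * k₂⁻¹ = c⁻¹) :
    (k₂ * k₁) * a * (k₂ * k₁)⁻¹ = c ∨ (k₂ * k₁) * a * (k₂ * k₁)⁻¹ = c⁻¹ := by
  have e : (k₂ * k₁) * a * (k₂ * k₁)⁻¹ = k₂ * (k₁ * a * k₁⁻¹) * k₂⁻¹ := by group
  rw [e]
  rcases h1 with h1 | h1 <;> rcases h2 with h2 | h2
  · left; rw [h1, h2]
  · right; rw [h1, h2]
  · right; rw [h1, ← conj_inv, h2]
  · left; rw [h1, ← conj_inv, h2, inv_inv]

theorem conj_pm_symm {k a b : G} (h : k * a * k⁻¹ = b ∨ k * a * k⁻¹ = b⁻¹) :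
    k⁻¹ * b * k⁻¹⁻¹ = a ∨ k⁻¹ * b * k⁻¹⁻¹ = a⁻¹ := by
  rcases h with h | h
  · left; rw [← h]; group
  · right
    have h1 : b = k * a⁻¹ * k⁻¹ := by
      rw [← conj_inv, h, inv_inv]
    rw [h1]; group

theorem conj_pm_excl {k s t u : G} (h1 : k * t * k⁻¹ = u ∨ k * t * k⁻¹ = u⁻¹)
    (h2 : k * s * k⁻¹ = u ∨ k * s * k⁻¹ = u⁻¹) : s = t ∨ s = t⁻¹ := by
  rcases h1 with h1 | h1 <;> rcases h2 with h2 | h2
  · left
    have h3 : k * s * k⁻¹ = k * t * k⁻¹ := by rw [h1, h2]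
    simpa using h3
  · right
    have h3 : k * s * k⁻¹ = k * t⁻¹ * k⁻¹ := by rw [← conj_inv, h1, h2]
    simpa using h3
  · right
    have h3 : k * s * k⁻¹ = k * t⁻¹ * k⁻¹ := by rw [← conj_inv, h1, h2, inv_inv]
    simpa using h3
  · left
    have h3 : k * s * k⁻¹ = k * t * k⁻¹ := by rw [h1, h2]
    simpa using h3

/-- A quaternion pair. -/
structure QPair (t s : G) : Prop where
  ot : orderOf t = 4
  os : orderOf s = 4
  inv : s * t * s⁻¹ = t⁻¹
  sq : t * t = s * s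

namespace QPair

variable {t s : G} (h : QPair t s)
include h

theorem t4 : t ^ 4 = 1 := pow_four_of_orderOf h.ot

theorem s4 : s ^ 4 = 1 := pow_four_of_orderOf h.os

theorem s4' : s * s * (s * s) = 1 := by rw [← pow_four_eq]; exact h.s4

theorem st : s * t = t⁻¹ * s := by
  calc s * t = (s * t * s⁻¹) * s := by group
    _ = t⁻¹ * s := by rw [h.inv]

theorem ts : t * s = s * t⁻¹ := by
  calc t * s = t * (s * t) * t⁻¹ := by group
    _ = t * (t⁻¹ * s) * t⁻¹ := by rw [h.st]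
    _ = s * t⁻¹ := by group

theorem w7 : t * s * t⁻¹ = s⁻¹ := by
  calc t * s * t⁻¹ = s * t⁻¹ * t⁻¹ := by rw [h.ts]
    _ = s * (t * t)⁻¹ := by group
    _ = s * (s * s)⁻¹ := by rw [h.sq]
    _ = s⁻¹ := by group

theorem swap : QPair s t := ⟨h.os, h.ot, h.w7, h.sq.symm⟩

theorem w5 : s * t = (t * s)⁻¹ := by
  apply eq_inv_of_mul_eq_one_left
  calc s * t * (t * s) = s * (t * t) * s := by group
    _ = s * (s * s) * s := by rw [h.sq]
    _ = s * s * (s * s) := by group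
    _ = 1 := h.s4'

theorem w1 : t * s * t = s := by
  calc t * s * t = t * (s * t) := by group
    _ = t * (t⁻¹ * s) := by rw [h.st]
    _ = s := by group

theorem sss : s * (s * s) = s⁻¹ := by
  apply eq_inv_of_mul_eq_one_left
  calc s * (s * s) * s = s * s * (s * s) := by group
    _ = 1 := h.s4'

theorem ts_inv_t : (t * s)⁻¹ * t = s⁻¹ := by
  rw [← h.w5]
  calc s * t * t = s * (t * t) := by group
    _ = s * (s * s) := by rw [h.sq]
    _ = s⁻¹ := h.sss

theorem ts_inv_tinv : (t * s)⁻¹ * t⁻¹ = s := by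
  rw [← h.w5]; group

theorem t_ne_inv : t ≠ t⁻¹ := by
  intro h1
  apply sq_ne_one_of_orderOf h.ot
  calc t * t = t * t⁻¹ := by rw [← h1]
    _ = 1 := mul_inv_cancel t

theorem s_ne : ¬ (s = t ∨ s = t⁻¹) := by
  intro h1
  apply h.t_ne_inv
  rcases h1 with h1 | h1
  · have h2 := h.inv
    rw [h1] at h2
    rw [← h2]; group
  · have h2 := h.inv
    rw [h1] at h2
    rw [← h2]; group

theorem ts_sq : t * s * (t * s) = s * s := by
  calc t * s * (t * s) = t * (s * t) * s := by group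
    _ = t * (t⁻¹ * s) * s := by rw [h.st]
    _ = s * s := by group

theorem ots : orderOf (t * s) = 4 := by
  apply orderOf_four_of_sq
  · rw [h.ts_sq]; exact sq_ne_one_of_orderOf h.os
  · calc (t * s) ^ 4 = (t * s * (t * s)) * (t * s * (t * s)) := pow_four_eq _
      _ = s * s * (s * s) := by rw [h.ts_sq]
      _ = 1 := h.s4'

end QPair

end Basic

/-! ## `Q₈` by `decide` -/

theorem q8_conj : ∀ x g : QuaternionGroup 2, x * g * x⁻¹ = g ∨ x * g * x⁻¹ = g⁻¹ := by decide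

set_option maxRecDepth 100000 in
theorem q8_facts : ∀ a b : QuaternionGroup 2, a * a ≠ 1 → b * b ≠ 1 → b * a * b⁻¹ = a⁻¹ →
    (∀ g : QuaternionGroup 2, g * g ≠ 1 →
      g = a ∨ g = a⁻¹ ∨ g = b ∨ g = b⁻¹ ∨ g = a * b ∨ g = (a * b)⁻¹) := by decide

section Transfer

variable {H : Type*} [Group H] (e : H ≃* QuaternionGroup 2)
include e

theorem q8_conj' (x g : H) : x * g * x⁻¹ = g ∨ x * g * x⁻¹ = g⁻¹ := by
  have h := q8_conj (e x) (e g)
  simpa only [← map_mul, ← map_inv, EmbeddingLike.apply_eq_iff_eq] using h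

theorem q8_class (a b : H) (ha : a * a ≠ 1) (hb : b * b ≠ 1) (hab : b * a * b⁻¹ = a⁻¹) (g : H)
    (hg : g * g ≠ 1) :
    g = a ∨ g = a⁻¹ ∨ g = b ∨ g = b⁻¹ ∨ g = a * b ∨ g = (a * b)⁻¹ := by
  have hne : ∀ x : H, x * x ≠ 1 → e x * e x ≠ 1 := by
    intro x hx h1
    apply hx
    apply e.injective
    rw [map_mul, h1, map_one]
  have h := q8_facts (e a) (e b) (hne a ha) (hne b hb)
    (by rw [← map_mul, ← map_inv, ← map_mul, hab, map_inv]) (e g) (hne g hg)
  simpa only [← map_mul, ← map_inv, EmbeddingLike.apply_eq_iff_eq] using h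

end Transfer

end Cfsg.Agent.H60.Zas
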