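import Mathlib
import Cfsg.Agent.H60.ZasQuat

/-!
# S0690 (Zassenhaus) team piece ACTA
-/

set_option autoImplicit false

namespace Cfsg.Agent.H60.Zas

open Cfsg.Agent.H72.Zas

universe u

section

variable {G : Type u} [Group G] [Finite G]

/-- classification of the elements of order 4 of a `Q₈`-Sylow containing a quaternion pair. -/
theorem q8_sylow_class (P : Sylow 2 G) (eP : P ≃* QuaternionGroup 2) {t s : G} (hp : QPair t s)
    (htP : t ∈ (P : Subgroup G)) (hsP : s ∈ (P : Subgroup G)) (g : G)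
    (hg : g ∈ (P : Subgroup G)) (hgo : orderOf g = 4) :
    g = t ∨ g = t⁻¹ ∨ g = s ∨ g = s⁻¹ ∨ g = t * s ∨ g = (t * s)⁻¹ := by
  have hne : ∀ (x : G) (hx : x ∈ (P : Subgroup G)), orderOf x = 4 →
      (⟨x, hx⟩ : P) * ⟨x, hx⟩ ≠ 1 := by
    intro x hx hxo h1
    exact sq_ne_one_of_orderOf hxo (congrArg Subtype.val h1)
  have h := q8_class eP ⟨t, htP⟩ ⟨s, hsP⟩ (hne t htP hp.ot) (hne s hsP hp.os)
    (Subtype.ext hp.inv) ⟨g, hg⟩ (hne g hg hgo)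
  simpa [Subtype.ext_iff] using h

theorem stepA (P : Sylow 2 G) (eP : P ≃* QuaternionGroup 2) (hc : Conj4 G) {t s : G}
    (hp : QPair t s) (u : G) (huP : u ∈ (P : Subgroup G)) (hu : orderOf u = 4) :
    ∃ k : G, (k * t * k⁻¹ = u ∨ k * t * k⁻¹ = u⁻¹) ∧ k * s * k⁻¹ ∈ (P : Subgroup G) ∧
      orderOf (k * s * k⁻¹) = 4 := by
  obtain ⟨g, hg⟩ := hc t u hp.ot hu
  obtain ⟨M, hM⟩ : ∃ M : Subgroup G,
      M = Subgroup.normalizer ((Subgroup.zpowers u : Subgroup G) : Set G) := ⟨_, rfl⟩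
  have hPM : (P : Subgroup G) ≤ M := by
    intro x hx
    rw [hM]
    apply mem_normalizer_zpowers
    have h1 := q8_conj' eP ⟨x, hx⟩ ⟨u, huP⟩
    have h2 : x * u * x⁻¹ = u ∨ x * u * x⁻¹ = u⁻¹ := by simpa [Subtype.ext_iff] using h1
    rcases h2 with h2 | h2
    · rw [h2]; exact Subgroup.mem_zpowers u
    · rw [h2]; exact Subgroup.inv_mem _ (Subgroup.mem_zpowers u)
  have hs₁ : g * s * g⁻¹ * u * (g * s * g⁻¹)⁻¹ = u⁻¹ := by
    have e1 : g⁻¹ * u * g = t := by rw [← hg]; group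
    calc g * s * g⁻¹ * u * (g * s * g⁻¹)⁻¹ = g * (s * (g⁻¹ * u * g) * s⁻¹) * g⁻¹ := by group
      _ = g * (s * t * s⁻¹) * g⁻¹ := by rw [e1]
      _ = g * t⁻¹ * g⁻¹ := by rw [hp.inv]
      _ = u⁻¹ := by rw [← hg]; group
  have hs₁M : g * s * g⁻¹ ∈ M := by
    rw [hM]
    apply mem_normalizer_zpowers
    rw [hs₁]; exact Subgroup.inv_mem _ (Subgroup.mem_zpowers u)
  have hs₁o : orderOf (g * s * g⁻¹) = 4 := by rw [orderOf_conj']; exact hp.os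
  obtain ⟨m, hmM, hmP⟩ := conj_into_sylow P M hPM (g * s * g⁻¹) hs₁M 2 (by
    rw [show (2 : ℕ) ^ 2 = 4 from rfl]; exact pow_four_of_orderOf hs₁o)
  refine ⟨m * g, ?_, ?_, ?_⟩
  · have e2 : m * g * t * (m * g)⁻¹ = m * u * m⁻¹ := by rw [← hg]; group
    rw [e2]
    apply ord4_mem_zpowers hu (by rw [orderOf_conj']; exact hu)
    rw [hM] at hmM
    exact conj_mem_zpowers_of_mem_normalizer hmM
  · have e3 : m * g * s * (m * g)⁻¹ = m * (g * s * g⁻¹) * m⁻¹ := by group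
    rw [e3]; exact hmP
  · have e3 : m * g * s * (m * g)⁻¹ = m * (g * s * g⁻¹) * m⁻¹ := by group
    rw [e3, orderOf_conj']; exact hs₁o

end

/-- **S0690-ACTA.** -/
theorem actA : StActA.{u} := by
  intro G _ _ S ⟨e⟩ hc t s ht hs hst hsq
  have hp : QPair t s := ⟨ht, hs, hst, hsq⟩
  have hQ : IsPGroup 2 (Subgroup.zpowers s ⊔ Subgroup.zpowers t : Subgroup G) := by
    apply IsPGroup.to_sup_of_normal_right'
    · exact isPGroup_zpowers 2 (by rw [show (2 : ℕ) ^ 2 = 4 from rfl]; exact hp.s4)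
    · exact isPGroup_zpowers 2 (by rw [show (2 : ℕ) ^ 2 = 4 from rfl]; exact hp.t4)
    · rw [Subgroup.zpowers_le]
      apply mem_normalizer_zpowers
      rw [hst]; exact Subgroup.inv_mem _ (Subgroup.mem_zpowers t)
  obtain ⟨P, hP⟩ := hQ.exists_le_sylow
  have htP : t ∈ (P : Subgroup G) := hP (Subgroup.mem_sup_right (Subgroup.mem_zpowers t))
  have hsP : s ∈ (P : Subgroup G) := hP (Subgroup.mem_sup_left (Subgroup.mem_zpowers s))
  have eP : P ≃* QuaternionGroup 2 := (Sylow.equiv P S).trans e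
  obtain ⟨k₁, hk₁t, hk₁P, hk₁o⟩ := stepA P eP hc hp s hsP hs
  obtain ⟨k₂, hk₂t, hk₂P, hk₂o⟩ :=
    stepA P eP hc hp (t * s) (Subgroup.mul_mem _ htP hsP) hp.ots
  have c1 := q8_sylow_class P eP hp htP hsP _ hk₁P hk₁o
  have c2 := q8_sylow_class P eP hp htP hsP _ hk₂P hk₂o
  have h1 : (k₁ * s * k₁⁻¹ = t ∨ k₁ * s * k₁⁻¹ = t⁻¹) ∨
      (k₁ * s * k₁⁻¹ = t * s ∨ k₁ * s * k₁⁻¹ = (t * s)⁻¹) := by
    rcases c1 with h | h | h | h | h | h
    · exact Or.inl (Or.inl h)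
    · exact Or.inl (Or.inr h)
    · exact absurd (conj_pm_excl hk₁t (Or.inl h)) hp.s_ne
    · exact absurd (conj_pm_excl hk₁t (Or.inr h)) hp.s_ne
    · exact Or.inr (Or.inl h)
    · exact Or.inr (Or.inr h)
  rcases h1 with h1 | h1
  swap
  · exact ⟨k₁, (⟨hk₁t, h1⟩ : _ ∧ _)⟩
  have h2 : (k₂ * s * k₂⁻¹ = t ∨ k₂ * s * k₂⁻¹ = t⁻¹) ∨
      (k₂ * s * k₂⁻¹ = s ∨ k₂ * s * k₂⁻¹ = s⁻¹) := by
    rcases c2 with h | h | h | h | h | h
    · exact Or.inl (Or.inl h)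
    · exact Or.inl (Or.inr h)
    · exact Or.inr (Or.inl h)
    · exact Or.inr (Or.inr h)
    · exact absurd (conj_pm_excl hk₂t (Or.inl h)) hp.s_ne
    · exact absurd (conj_pm_excl hk₂t (Or.inr h)) hp.s_ne
  rcases h2 with h2 | h2
  · have h3 : k₂ * (t * s) * k₂⁻¹ = s ∨ k₂ * (t * s) * k₂⁻¹ = s⁻¹ := by
      rw [← conj_mul]
      rcases hk₂t with ha | ha <;> rcases h2 with hb | hb
      · left; rw [ha, hb]; exact hp.w1
      · right; rw [ha, hb]; exact hp.w7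
      · right; rw [ha, hb]; exact hp.ts_inv_t
      · left; rw [ha, hb]; exact hp.ts_inv_tinv
    exact ⟨k₂⁻¹, (⟨conj_pm_symm h2, conj_pm_symm h3⟩ : _ ∧ _)⟩
  · exact ⟨k₂ * k₁, (⟨conj_pm_trans hk₁t h2, conj_pm_trans h1 hk₂t⟩ : _ ∧ _)⟩

end Cfsg.Agent.H60.Zas
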